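import Cfsg.Agent.TwoF.XL.U43.Syl
import Cfsg.Agent.TwoF.XL.U43.Lab

/-!
# TwoF XL-U43: certificates for the involutions and four-groups of the Sylow `2`-subgroup (helper87)
-/

set_option autoImplicit false
set_option maxRecDepth 100000

namespace Cfsg.Agent.TwoF.XL.U43

open Cfsg.Agent.SporadicStructure.PermChain

def sq (e : ℕ) : Bool := Nat.beq (cde (wd 10 e ++ wd 10 e)) (cde [])
def cmt (e f : ℕ) : Bool := Nat.beq (cde (wd 10 e ++ wd 10 f)) (cde (wd 10 f ++ wd 10 e))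

theorem sq_of {e : ℕ} (h : el e * el e = 1) : sq e = true :=
  Nat.beq_eq.mpr (cde_eq ((W_append _ _).trans h))

theorem cmt_of {e f : ℕ} (h : el e * el f = el f * el e) : cmt e f = true :=
  Nat.beq_eq.mpr (cde_eq ((W_append _ _).trans (h.trans (W_append _ _).symm)))

/-- the commutator of an involution with an inner word -/
def cv (e : ℕ) (k : List ℕ × List ℕ × ℕ) (p : ℕ) : ℕ := ev 16 (wd 10 e) (ev 13 k.1 (ev 16 (wd 10 e) (ev 13 k.2.1 p)))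

/-- a cycle of length four -/
def c4 (e : ℕ) (k : List ℕ × List ℕ × ℕ) : Bool :=
  force (cv e k k.2.2) fun p1 => force (cv e k p1) fun p2 => !(Nat.beq p2 k.2.2) &&
    force (cv e k p2) fun p3 => Nat.beq (cv e k p3) k.2.2

/-- a cycle of length two -/
def c2 (e : ℕ) (k : List ℕ × List ℕ × ℕ) : Bool :=
  force (cv e k k.2.2) fun p1 => !(Nat.beq p1 k.2.2) && Nat.beq (cv e k p1) k.2.2

def K4 : List (List ℕ × List ℕ × ℕ) := [([2, 0, 4], [4, 4, 1, 2], 79), ([5], [5, 5], 134), ([1, 4, 2], [2, 4, 4, 0], 50),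
  ([0, 0, 2], [2, 1, 1], 275), ([0, 2, 0], [1, 2, 1], 99), ([2, 5], [5, 5, 2], 100), ([4, 2, 0], [1, 2, 4, 4], 0),
  ([0, 0, 0], [1, 1, 1], 106), ([0, 4], [4, 4, 1], 83), ([1, 2, 5], [5, 5, 2, 0], 20)]
def K2 : List (List ℕ × List ℕ × ℕ) := [([2, 0, 4], [4, 4, 1, 2], 0), ([3, 3, 0], [1, 3, 3, 3], 0)]
/-- the reflections -/
def Bad : List ℕ := [270, 271, 356, 359, 360, 362, 392, 393, 449, 450, 456, 458]
/-- the inner involutions -/
def I0 : List ℕ := [1, 2, 3, 8, 9, 10, 11, 12, 13, 14, 15, 16, 17, 20, 21, 26, 27, 28, 29, 64, 65, 66, 67, 72, 73, 74,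
  75, 100, 101, 102, 103, 104, 105, 106, 107]

theorem chkK : ∀ k ∈ K4 ++ K2, eqB (k.2.1 ++ k.1) [] = true ∧ k.2.2 < 280 := by decide +kernel

theorem chkInv : allBelow (fun e => !(sq e) || (Nat.beq e 0 || ((Nat.blt e 768 && (Nat.ble 128 e || I0.any (Nat.beq e))) &&
    (K4.any (c4 e) || (Bad.any (Nat.beq e) && K2.any (c2 e)))))) 1024 = true := by decide +kernel

theorem inv_spec {e : ℕ} (he : e < 1024) (h : sq e = true) (h0 : e ≠ 0) : e < 768 ∧ (e < 128 → e ∈ I0) ∧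
    ((∃ k ∈ K4, c4 e k = true) ∨ (e ∈ Bad ∧ ∃ k ∈ K2, c2 e k = true)) := by
  have := allBelow_spec _ _ chkInv e he
  simp only [h, Bool.not_true, Bool.false_or, Bool.or_eq_true, Bool.and_eq_true, Nat.beq_eq, Nat.blt_eq, Nat.ble_eq,
    List.any_eq_true, h0, false_or, exists_eq_right'] at this
  exact ⟨this.1.1, fun h => this.1.2.resolve_left (by omega), this.2⟩

theorem chkBad : (Bad.all fun e => Bad.all fun f => force (cde (wd 10 e ++ wd 10 f)) fun c =>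
    Bad.all fun g => !(Nat.beq c (cde (wd 10 g)))) = true := by decide +kernel

theorem bad_mul {e f g : ℕ} (he : e ∈ Bad) (hf : f ∈ Bad) (hg : g ∈ Bad) : el e * el f ≠ el g := fun h => by
  have := List.all_eq_true.1 (List.all_eq_true.1 chkBad e he) f hf
  rw [force_eq] at this
  have := List.all_eq_true.1 this g hg
  rw [cde_eq ((W_append _ _).trans h), Nat.beq_refl] at this
  exact Bool.noConfusion this

/-- packed words -/
def unp : ℕ → ℕ → List ℕ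
  | 0, _ => []
  | k + 1, n => bif Nat.beq n 0 then [] else (n % 16 - 1) :: unp k (n / 16)

def LI : List ℕ := [
  0x18b480c0, 0x1d61380c1, 0x59aba80c2, 0x1e9380c3, 0x1baba80c8, 0x1aba80c9, 0x49aba80ca, 0x61aba80cb, 0x2bc0e4,
  0x2240e5, 0x6a240e6, 0x4a240e7, 0x5a240e8, 0x5abc0e9, 0x65a240ea, 0x5ca240eb, 0x2342d8108, 0x209c8482, 0x30b42810a,
  0x1da22810b, 0x2422c10c, 0x16b09c10d, 0x6a422c10e, 0x62422c10f, 0x4a4228140, 0x2160a082, 0x24228142, 0x16b098143,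
  0x2ec3c164, 0xb4ac165, 0xe5c0c166, 0x16e48c167, 0x98e90188, 0x60cb68483, 0xcb68503, 0xa26c818b, 0x3119418c,
  0x4b119418d, 0x6b119418e, 0x63119418f, 0xd30981c8, 0x311901c9, 0x4b11901ca, 0x6311901cb, 0x61a4241e8, 0x49a4241e9,
  0x1a4241ea, 0x69a4241eb, 0x1dc2040a, 0x59da040b, 0x35ca94a08, 0x15e88c415, 0x2e430c41c, 0xd388c41d, 0x32cba108,
  0x1151a188, 0x1ab20844a, 0xd388844b, 0x59dc2048a, 0x1da048b, 0x422c9ca09, 0x22c9ca89, 0x62e53449c, 0xc588c49d,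
  0xcab2009, 0x16b8884c1, 0xba3284c8, 0x28e1584c9, 0x6ae534510, 0x21535488a, 0x2e53451a, 0x42e53451b, 0x1d213a00a,
  0x18a588541, 0x32e898854a, 0x126c8a58a, 0x11392c590, 0x2b50bc591, 0x35611459a, 0x29391c59b, 0x20ca285c2,
  0x1335e85c3, 0x3561105c8, 0x3133685c9, 0x242460e, 0x5a42460f, 0x33a318610, 0x28de20611, 0x9d92861c, 0xa24a861d,
  0xc8c730c, 0x354b24667, 0x12b6750c, 0x28de2466b, 0x16430c68e, 0x4a42468f, 0x1e9a20690, 0x31e1d8691, 0x42695869c,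
  0x2695869d, 0x6226c46e4, 0x1ea2728d, 0x330e8c6e8, 0x14194c6e9, 0x32d08a0e, 0x269548715, 0x28e1a071a, 0x2e9360d8e,
  0x61ea2720e, 0x226c4765, 0x2dc9f50e, 0x28e1a476b, 0x194a18794, 0xd9610795, 0xaa311079a, 0x30a290d8f, 0x1e24247e6,
  0x4a26c47e7, 0x9ed947e8, 0x320a5c7e9, 0x1520a481a, 0x1139481b, 0x49c9a081c, 0x1d1a0e90, 0x41139489a, 0x12d48c89b,
  0x1c9a089c, 0x22126089d, 0x233b40a1a, 0x2da4c0a1b, 0x1cda94a1c, 0x611394a1d, 0x69d1a0a9a, 0x61c9a0a9b, 0x2e3624e15,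
  0x1dd294a9d, 0x3351a041, 0x242042, 0x492d312049, 0xea0a04a, 0x62420c3, 0x60ea0a0c8, 0xe9338a0cb, 0x3539a143,
  0x20ca4c2, 0x12d31214a, 0xe28ba1c8, 0x620ca5c3, 0x1a54a4c8, 0x65a4244b, 0x5a42549, 0x28ca254b, 0x1abf2e4,
  0x60b4f266, 0x14340f269, 0x61ca2726a, 0xb4f2e7, 0x1ca272e8, 0x689d972eb, 0x69abf367, 0x69ca27369, 0x9d9736a,
  0x609d973e8, 0xa24f3eb, 0x59abf469, 0x58b4f46b, 0x6d8b4f4ea, 0x24ba9756b]

def LII : List (ℕ × ℕ) := [
  (0x3321d8082, 0x676), (0x4a24181, 0x3b3), (0x59da0088, 0xc), (0x1da0089, 0xc9), (0x5e1da008a, 0xc),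
  (0x59dba008b, 0xc), (0x242408c, 0xd), (0x4a42408d, 0xd), (0x6a42408e, 0xd), (0x224781, 0x3), (0x1520a4090, 0xd),
  (0x12d48c091, 0xd), (0x1cda94094, 0xd), (0x1dd294095, 0xd), (0x1ac26409a, 0xd), (0xea0a409b, 0xd),
  (0x26925c09c, 0xd), (0x22c9ac09d, 0xd), (0x2ec3c182, 0x3b3), (0x65a40148, 0x9), (0x5ca40149, 0x9),
  (0x5a4014a, 0x9), (0x5e24014b, 0x9), (0x58b4c168, 0x9), (0x6d8b4c169, 0x9), (0x31421c16a, 0x9), (0x5c8b4c16b, 0x9),
  (0x2401c0, 0x9), (0x62401c1, 0x9), (0x4a401c2, 0x9), (0x64a401c3, 0x9), (0x60b4c1e4, 0x9), (0xb4c1e5, 0x9),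
  (0x68b4c1e6, 0x9), (0x48b4c1e7, 0x9), (0x6b49a4488, 0x162), (0x492d310440, 0xb9), (0x60ea08441, 0xb9),
  (0x615208448, 0xb9), (0x592d310449, 0xb9), (0x12d3104c2, 0xb9), (0x65a0c84c3, 0xb9), (0x1da2509, 0x676),
  (0x620c84cb, 0xb9), (0x348cc50b, 0x4c32), (0x5a0c8542, 0xb), (0xe28b8543, 0xb), (0x348aa10548, 0xb),
  (0x20c8549, 0xb), (0xea085c0, 0xb), (0xe933885c1, 0xb), (0x152085ca, 0xb), (0x15133885cb, 0xb),
  (0x242068c, 0x5474), (0x14340c664, 0xb), (0x1ca24665, 0xb), (0x1c9a24668, 0xb), (0x1aec3c669, 0xb),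
  (0x9d946e6, 0xb), (0xa24c6e7, 0xb), (0x2542946ea, 0xb), (0x58a24c6eb, 0xb), (0x1adc9c78e, 0x3),
  (0x69ca24766, 0xb9), (0x609d94767, 0xb9), (0x59a24768, 0xb39), (0x4158769, 0x6861), (0x61ca247e4, 0xb9),
  (0x1a247e5, 0x3), (0x2dc9c7ea, 0x3), (0x24d9a47eb, 0xb9), (0xbb430890, 0x1b2), (0x69d1a4a15, 0x673),
  (0x365914d1b, 0x376), (0x1d1a4e1d, 0x686c), (0x3a461c0, 0x1a6), (0x242440, 0x676b), (0xea0e5c0, 0x353),
  (0x4a460c2, 0x53b3), (0x62424c1, 0x676b), (0x60ea0a541, 0x676), (0x61520a148, 0x4242), (0x4a425c2, 0x676),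
  (0x65a0ca4c3, 0x676b), (0x5a421ca, 0xb676), (0x55a4644a, 0x4c51), (0x20ca5c9, 0x676), (0x609d97267, 0x3),
  (0x3130e0f268, 0x3), (0x68a24b5e4, 0x636), (0x9d972e6, 0x3c3), (0x2bab4e5, 0x5454), (0x12b672ea, 0xb39),
  (0x58b4f368, 0x3b3), (0x5c8b4f36b, 0x3b3), (0xa24f4e7, 0x393), (0x2dc9f3ea, 0x3b9), (0x2dc9f46a, 0x3b9),
  (0x58a24f4eb, 0x393)]

def wk (n : ℕ) : List ℕ := bif Nat.testBit n 14 then wc else wb

theorem wk_eq (n : ℕ) : wk n = wb ∨ wk n = wc := by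
  unfold wk; cases Nat.testBit n 14
  exacts [Or.inl rfl, Or.inr rfl]

theorem chkLI : (LI.all fun n => eqB (unp 8 (n / 32768) ++ wd 7 (n % 16384 / 128)) (wa ++ unp 8 (n / 32768)) &&
    eqB (unp 8 (n / 32768) ++ wd 7 (n % 128)) (wk n ++ unp 8 (n / 32768))) = true := by decide +kernel

theorem chkLII : (LII.all fun n => eqB (unp 8 n.2 ++ wd 7 (n.1 % 16384 / 128)) (wd 7 (n.1 % 16384 / 128) ++ unp 8 n.2) &&
    (eqB (unp 8 (n.1 / 32768) ++ wd 7 (n.1 % 128)) (wa ++ unp 8 (n.1 / 32768)) &&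
      eqB (unp 8 (n.1 / 32768) ++ unp 8 n.2 ++ wd 7 (n.1 % 128)) (wk n.1 ++ (unp 8 (n.1 / 32768) ++ unp 8 n.2)))) =
    true := by decide +kernel

/-- the pair is conjugate to a standard pair -/
def TI (e f : ℕ) : Prop := ∃ k w, (w = wb ∨ w = wc) ∧ Wm (k ++ wd 7 e) = Wm (wa ++ k) ∧ Wm (k ++ wd 7 f) = Wm (w ++ k)

/-- the second element and a conjugate under the centraliser of the first one are a standard pair -/
def TII (e f : ℕ) : Prop := ∃ k x w, (w = wb ∨ w = wc) ∧ Wm (x ++ wd 7 e) = Wm (wd 7 e ++ x) ∧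
  Wm (k ++ wd 7 f) = Wm (wa ++ k) ∧ Wm (k ++ x ++ wd 7 f) = Wm (w ++ (k ++ x))

def isI (e f : ℕ) : Bool := LI.any fun n => force (n % 16384) fun c => Nat.beq c (128 * e + f) || Nat.beq c (128 * f + e)
def isII (e f : ℕ) : Bool :=
  LII.any fun n => force (n.1 % 16384) fun c => Nat.beq c (128 * e + f) || Nat.beq c (128 * f + e)

theorem isI_spec {e f : ℕ} (he : e < 128) (hf : f < 128) (h : isI e f = true) : TI e f ∨ TI f e := by
  obtain ⟨n, hn, h⟩ := List.any_eq_true.1 h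
  have c := List.all_eq_true.1 chkLI n hn
  rw [Bool.and_eq_true, eqB_iff, eqB_iff] at c
  rw [force_eq, Bool.or_eq_true, Nat.beq_eq, Nat.beq_eq] at h
  refine h.imp (fun h => ?_) fun h => ?_
  · rw [show n % 16384 / 128 = e by omega, show n % 128 = f by omega] at c
    exact ⟨_, _, wk_eq n, c⟩
  · rw [show n % 16384 / 128 = f by omega, show n % 128 = e by omega] at c
    exact ⟨_, _, wk_eq n, c⟩

theorem isII_spec {e f : ℕ} (he : e < 128) (hf : f < 128) (h : isII e f = true) : TII e f ∨ TII f e := by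
  obtain ⟨n, hn, h⟩ := List.any_eq_true.1 h
  have c := List.all_eq_true.1 chkLII n hn
  rw [Bool.and_eq_true, Bool.and_eq_true, eqB_iff, eqB_iff, eqB_iff] at c
  rw [force_eq, Bool.or_eq_true, Nat.beq_eq, Nat.beq_eq] at h
  refine h.imp (fun h => ?_) fun h => ?_
  · rw [show n.1 % 16384 / 128 = e by omega, show n.1 % 128 = f by omega] at c
    exact ⟨_, _, _, wk_eq n.1, c⟩
  · rw [show n.1 % 16384 / 128 = f by omega, show n.1 % 128 = e by omega] at c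
    exact ⟨_, _, _, wk_eq n.1, c⟩

theorem chkP : (I0.all fun e => I0.all fun f => Nat.beq e f || (!(cmt e f) || (isI e f || (isII e f &&
    I0.all fun g => (Nat.beq g e || Nat.beq g f) || (!(cmt e g) || (!(cmt f g) || ((isI e g || isI f g) ||
      Nat.beq (cde (wd 10 e ++ wd 10 f)) (cde (wd 10 g))))))))) = true := by decide +kernel

theorem pair_spec {e f : ℕ} (he : e ∈ I0) (hf : f ∈ I0) (h : e ≠ f) (hc : cmt e f = true) : isI e f = true ∨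
    (isII e f = true ∧ ∀ g ∈ I0, g ≠ e → g ≠ f → cmt e g = true → cmt f g = true →
      isI e g = true ∨ isI f g = true ∨ cde (wd 10 e ++ wd 10 f) = cde (wd 10 g)) := by
  have := List.all_eq_true.1 (List.all_eq_true.1 chkP e he) f hf
  simp only [hc, Bool.not_true, Bool.false_or, Bool.or_eq_true, Bool.and_eq_true, Nat.beq_eq, h, false_or,
    List.all_eq_true] at this
  refine this.imp_right fun p => ⟨p.1, fun g hg h1 h2 h3 h4 => ?_⟩
  have := p.2 g hg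
  simp only [h1, h2, h3, h4, Bool.not_true, false_or, Bool.false_eq_true] at this
  exact or_assoc.1 this

end Cfsg.Agent.TwoF.XL.U43
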