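import Cfsg.Agent.TwoF.XL.U43.Wt

/-!
# TwoF XL-U43: lower bounds from the weights, the small case (helper87)
-/

set_option autoImplicit false

namespace Cfsg.Agent.TwoF.XL.U43

open Module Gen Cfsg.Agent.SporadicStructure.PermChain

variable {Y : Type} [Group Y] [Finite Y] {K : Subgroup Y} {V : Type} [AddCommGroup V] [Module (ZMod 2) V] [Finite V]

omit [Finite Y] in
theorem even_cod (ρ : Representation (ZMod 2) Y V) {a : Y} (ha : a ^ 3 = 1) : Even (cod ρ (Subgroup.zpowers a)) := by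
  have : Fact (Nat.Prime 3) := ⟨Nat.prime_three⟩
  have h := pow_cod_modEq (ρ := ρ) (s := 3) (by rw [Nat.card_zmod]; norm_num) (elemAb_isPGroup (elemAb_zpowers ha))
  by_contra e
  obtain ⟨t, e⟩ := Nat.not_even_iff_odd.1 e
  rw [Nat.card_zmod, e, pow_succ, pow_mul] at h
  have := ((Nat.ModEq.pow t (show 2 ^ 2 ≡ 1 [MOD 3] by decide)).mul_right 2).symm.trans h
  rw [one_pow] at this
  exact absurd this (by decide)

namespace Dat

variable (D : Dat K) (ρ : Representation (ZMod 2) Y V) [Fintype (D.R →* kbˣ)]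

/-- the weighted sum of a function of the labels -/
noncomputable def Sm (F : ℕ → ℕ → ℕ) : ℕ := ∑ χ : D.R →* kbˣ, F (D.dd χ) (D.mm χ) * mlt (bc kb ρ) D.R χ

theorem Sm_al (F : ℕ → ℕ → ℕ) : D.Sm ρ (fun d m => F d (al m)) = D.Sm ρ F := by
  rw [Sm, Sm, ← Equiv.sum_comp (twP kb D.R ⟨D.x, D.xN⟩) fun χ => F (D.dd χ) (D.mm χ) * mlt (bc kb ρ) D.R χ]
  refine Finset.sum_congr rfl fun χ _ => ?_
  rw [twP_apply, mlt_tw, D.mm_x, D.dd_tw _ _ D.xK]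

theorem Sm_be (F : ℕ → ℕ → ℕ) : D.Sm ρ (fun d m => F d (be d m)) = D.Sm ρ F := by
  rw [Sm, Sm, ← Equiv.sum_comp (twP kb D.R ⟨D.y, D.yN⟩) fun χ => F (D.dd χ) (D.mm χ) * mlt (bc kb ρ) D.R χ]
  refine Finset.sum_congr rfl fun χ _ => ?_
  rw [twP_apply, mlt_tw, D.mm_y, D.dd_tw _ _ D.yK]

omit [Finite Y] [Finite V] in
theorem Sm_add (F G : ℕ → ℕ → ℕ) : D.Sm ρ (fun d m => F d m + G d m) = D.Sm ρ F + D.Sm ρ G := by
  simp only [Sm, add_mul, Finset.sum_add_distrib]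

omit [Finite Y] [Finite V] in
theorem Sm_mul (c : ℕ) (F : ℕ → ℕ → ℕ) : D.Sm ρ (fun d m => c * F d m) = c * D.Sm ρ F := by
  simp only [Sm, mul_assoc, Finset.mul_sum]

omit [Finite Y] [Finite V] in
theorem Sm_mono {F G : ℕ → ℕ → ℕ} (h : ∀ χ, 0 < mlt (bc kb ρ) D.R χ → F (D.dd χ) (D.mm χ) ≤ G (D.dd χ) (D.mm χ)) :
    D.Sm ρ F ≤ D.Sm ρ G := Finset.sum_le_sum fun χ _ => by
  rcases Nat.eq_zero_or_pos (mlt (bc kb ρ) D.R χ) with e | e
  · rw [e, mul_zero, mul_zero]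
  · exact Nat.mul_le_mul_right _ (h χ e)

theorem Sm_s5 (F : ℕ → ℕ → ℕ) : D.Sm ρ (fun d m => s5 (F d) m) = 5 * D.Sm ρ F := by
  have h1 := D.Sm_al ρ F
  have h2 := D.Sm_al ρ fun d m => F d (al m)
  have h3 := D.Sm_al ρ fun d m => F d (al (al m))
  have h4 := D.Sm_al ρ fun d m => F d (al (al (al m)))
  simp only [s5_eq]
  rw [Sm_add, Sm_add, Sm_add, Sm_add, h4, h3, h2, h1]
  show D.Sm ρ F + _ + _ + _ + _ = _
  omega

theorem avg_le {F G : ℕ → ℕ → ℕ}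
    (h : ∀ χ, 0 < mlt (bc kb ρ) D.R χ → s5 (F (D.dd χ)) (D.mm χ) ≤ s5 (G (D.dd χ)) (D.mm χ)) :
    D.Sm ρ F ≤ D.Sm ρ G := by
  have := D.Sm_mono ρ (F := fun d m => s5 (F d) m) (G := fun d m => s5 (G d) m) h
  rw [Sm_s5, Sm_s5] at this
  omega

/-- the number of weights that are non-trivial on the complement -/
noncomputable def n0 : ℕ := D.Sm ρ fun _ m => nz m

theorem lb {j c : ℕ} {ws : List (List ℕ)} (h : chkLb j c ws = true) {A : Subgroup Y}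
    (hA : A ≤ Subgroup.normalizer (D.R : Set Y)) (hw : ∀ w ∈ ws, ∃ a ∈ A, D.At a w) :
    c * D.n0 ρ ≤ 5 * cod ρ A := by
  classical
  have h1 := D.avg_le ρ (F := fun d m => c * nz m + H j d m) (G := fun d m => 5 * xi j d m + H j d (be d m))
    fun χ _ => (chkLb_spec h (dd_mem χ) (D.mm_lt χ)).2
  rw [Sm_add, Sm_add, Sm_be, D.Sm_mul ρ c fun _ m => nz m, Sm_mul] at h1
  have h2 := sum_mlt_le_cod (ρ := bc kb ρ) hA (Finset.univ.filter fun χ => X j (D.dd χ) (D.mm χ) = true)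
    fun χ hχ => by
      obtain ⟨w, hw', e⟩ := (chkLb_spec h (dd_mem χ) (D.mm_lt χ)).1 (Finset.mem_filter.1 hχ).2
      obtain ⟨a, ha, h3⟩ := hw w hw'
      refine ⟨a, ha, fun h4 => ?_⟩
      have h5 := (Finset.mem_filter.1 h4).2
      rw [h3.mm, D.dd_tw _ _ h3.mem, e] at h5
      exact Bool.noConfusion h5
  rw [cod_bc, Finset.sum_filter] at h2
  have h3 : D.Sm ρ (xi j) = ∑ χ : D.R →* kbˣ, if X j (D.dd χ) (D.mm χ) = true then mlt (bc kb ρ) D.R χ else 0 :=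
    Finset.sum_congr rfl fun χ _ => by
      rw [xi]
      cases X j (D.dd χ) (D.mm χ) <;> simp
  have h4 : D.Sm ρ (fun d m => xi j d m) = D.Sm ρ (xi j) := rfl
  unfold n0
  omega

/-- `x` followed by the Galois automorphism -/
noncomputable def Ga (χ : D.R →* kbˣ) : D.R →* kbˣ := tw D.x D.xN χ ^ 2

omit [Fintype (D.R →* kbˣ)] in
theorem Ga_iter (k : ℕ) (χ : D.R →* kbˣ) : (D.dd (D.Ga^[k] χ), D.mm (D.Ga^[k] χ)) = gam^[k] (D.dd χ, D.mm χ) ∧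
    mlt (bc kb ρ) D.R (D.Ga^[k] χ) = mlt (bc kb ρ) D.R χ := by
  induction k with
  | zero => exact ⟨rfl, rfl⟩
  | succ k ih =>
    rw [Function.iterate_succ_apply', Function.iterate_succ_apply', ← ih.1, ← ih.2, Ga, mm_sq, dd_sq, mm_x,
      D.dd_tw _ _ D.xK, gam, gm_eq]
    refine ⟨rfl, ?_⟩
    have := mlt_pow_card (ρ := ρ) kb (tw D.x D.xN (D.Ga^[k] χ))
    rwa [ZMod.card, mlt_tw] at this

theorem twenty {χ ψ : D.R →* kbˣ} (h1 : 0 < mlt (bc kb ρ) D.R χ) (h2 : 0 < mlt (bc kb ρ) D.R ψ) (g1 : D.mm χ ≠ 0)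
    (g2 : D.mm ψ ≠ 0) (h : ∀ k < 10, (D.dd ψ, D.mm ψ) ≠ gam^[k] (D.dd χ, D.mm χ)) : 20 ≤ D.n0 ρ := by
  classical
  have inj : ∀ φ : D.R →* kbˣ, D.mm φ ≠ 0 → Set.InjOn (fun k => D.Ga^[k] φ) (Finset.range 10 : Set ℕ) := by
    intro φ hφ i hi k hk e
    have hi : i < 10 := Finset.mem_range.1 hi
    have hk : k < 10 := Finset.mem_range.1 hk
    have e' : gam^[i] (D.dd φ, D.mm φ) = gam^[k] (D.dd φ, D.mm φ) := by
      rw [← (D.Ga_iter ρ i φ).1, ← (D.Ga_iter ρ k φ).1, show D.Ga^[i] φ = D.Ga^[k] φ from e]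
    have := (gam_free (l := (D.dd φ, D.mm φ)) (D.mm_lt φ) hφ (Nat.mod_lt _ (by norm_num))).2
      (gam_shift (D.dd_lt φ) (D.mm_lt φ) (D.dd_lt φ) (D.mm_lt φ) hk e').symm
    omega
  have dis : Disjoint ((Finset.range 10).image fun k => D.Ga^[k] χ) ((Finset.range 10).image fun k => D.Ga^[k] ψ) := by
    rw [Finset.disjoint_left]
    intro φ a b
    obtain ⟨i, _, rfl⟩ := Finset.mem_image.1 a
    obtain ⟨k, hk, e⟩ := Finset.mem_image.1 b
    have e' : gam^[i] (D.dd χ, D.mm χ) = gam^[k] (D.dd ψ, D.mm ψ) := by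
      rw [← (D.Ga_iter ρ i χ).1, ← (D.Ga_iter ρ k ψ).1, e]
    exact h _ (Nat.mod_lt _ (by norm_num))
      (gam_shift (D.dd_lt ψ) (D.mm_lt ψ) (D.dd_lt χ) (D.mm_lt χ) (Finset.mem_range.1 hk) e')
  have one : ∀ φ : D.R →* kbˣ, 0 < mlt (bc kb ρ) D.R φ → D.mm φ ≠ 0 → ∀ a ∈ (Finset.range 10).image fun k => D.Ga^[k] φ,
      1 ≤ nz (D.mm a) * mlt (bc kb ρ) D.R a := fun φ p1 p2 a ha => by
    obtain ⟨k, hk, rfl⟩ := Finset.mem_image.1 ha
    have := (gam_free (l := (D.dd φ, D.mm φ)) (D.mm_lt φ) p2 (Finset.mem_range.1 hk)).1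
    rw [← (D.Ga_iter ρ k φ).1] at this
    rw [nz_eq, if_neg this, one_mul, (D.Ga_iter ρ k φ).2]
    exact p1
  have c := Finset.card_nsmul_le_sum _ (fun a => nz (D.mm a) * mlt (bc kb ρ) D.R a) 1
    fun a ha => (Finset.mem_union.1 ha).elim (one χ h1 g1 a) (one ψ h2 g2 a)
  rw [Finset.card_union_of_disjoint dis, Finset.card_image_of_injOn (inj χ g1), Finset.card_image_of_injOn (inj ψ g2),
    Finset.card_range] at c
  exact c.trans (Finset.sum_le_sum_of_subset (Finset.subset_univ _))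

theorem cod_el (n : ℕ) : cod ρ (Subgroup.zpowers (D.el n)) = D.Sm ρ fun _ m => nz (ip n m % 3) := by
  rw [← cod_bc kb, show D.el n = ((⟨D.el n, D.el_mem n⟩ : D.R) : Y) from rfl, cod_zpowers_eq_sum D.R_comm D.R_card]
  refine Finset.sum_congr rfl fun χ _ => ?_
  rw [← v_eq χ (D.el_mem n), v_el, ← pow_zero om]
  simp only [om_inj, Nat.zero_mod, nz_eq]
  split_ifs <;> simp

theorem sv_iter {j : ℕ} (hj : j < 2) {l : ℕ × ℕ} (h2 : l.2 < 81) (h : 81 * l.1 + l.2 ∈ Sv j) (k : ℕ) :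
    (gam^[k] l).2 < 81 ∧ 81 * (gam^[k] l).1 + (gam^[k] l).2 ∈ Sv j := by
  induction k with
  | zero => exact ⟨h2, h⟩
  | succ k ih =>
    have := (chkSm j hj _ ih.2).1
    rw [show (81 * (gam^[k] l).1 + (gam^[k] l).2) / 81 = (gam^[k] l).1 by omega,
      show (81 * (gam^[k] l).1 + (gam^[k] l).2) % 81 = (gam^[k] l).2 by omega] at this
    rw [Function.iterate_succ_apply']
    refine ⟨?_, this⟩
    show gm _ < 81
    rw [gm_eq]
    exact cd_lt (Nat.mod_lt _ (by norm_num)) (Nat.mod_lt _ (by norm_num)) (Nat.mod_lt _ (by norm_num))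
      (Nat.mod_lt _ (by norm_num))

theorem small (hf : Function.Injective ρ) (h0 : D.r0 ≠ 1) (h : D.n0 ρ < 20) :
    ∃ j < 2, cod ρ (Subgroup.zpowers (D.el (gv j))) ≤ 4 ∧
      ∀ q, D.At q (wq j) → q⁻¹ * D.el (uv j) * q ≠ D.el (uv j) := by
  obtain ⟨χ, h1, h2⟩ := exists_wt (ρ := bc kb ρ) D.R_comm D.R_card (r := ⟨D.r0, D.m0⟩)
    fun e => h0 (bc_injective kb hf (e.trans (map_one _).symm))
  have h3 : D.mm χ ≠ 0 := fun e => h1 (by
    have : lg (D.v χ D.r0) = 0 := by unfold mm cd at e; omega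
    rw [← v_eq χ D.m0, v_om χ D.m0 D.c0, this, pow_zero])
  have h4 : ∀ ψ, 0 < mlt (bc kb ρ) D.R ψ → D.mm ψ ≠ 0 → ∃ k < 10, (D.dd ψ, D.mm ψ) = gam^[k] (D.dd χ, D.mm χ) :=
    fun ψ p1 p2 => by
      by_contra e
      exact absurd (D.twenty ρ h2 p1 h3 p2 fun k hk e' => e ⟨k, hk, e'⟩) (not_le.2 h)
  obtain ⟨j, hj, h5⟩ := mem_Sv (dd_mem χ) (D.mm_lt χ) h3 fun i _ e => by
    have := h4 (tw _ (D.wY_mem D.xN D.yN (4 :: List.replicate i 3)) χ) (by rwa [mlt_tw]) (by rwa [mm_wY])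
    rwa [mm_wY, D.dd_tw _ _ (D.wY_mem D.xK D.yK _)] at this
  have h6 : ∀ ψ, 0 < mlt (bc kb ρ) D.R ψ → D.mm ψ = 0 ∨ ∃ n ∈ Sv j, n % 81 = D.mm ψ := fun ψ p1 => by
    refine (em _).imp_right fun p2 => ?_
    obtain ⟨k, _, e⟩ := h4 ψ p1 p2
    have := (sv_iter hj (l := (D.dd χ, D.mm χ)) (D.mm_lt χ) h5 k).2
    rw [← e] at this
    exact ⟨_, this, by have := D.mm_lt ψ; show (81 * D.dd ψ + D.mm ψ) % 81 = _; omega⟩
  have h7 : ∀ g c, (∀ n ∈ Sv j, s5 (fun m => 5 * nz (ip g m % 3)) (n % 81) = s5 (fun m => c * nz m) (n % 81)) →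
      5 * cod ρ (Subgroup.zpowers (D.el g)) = c * D.n0 ρ := fun g c e => by
    have e' : ∀ ψ, 0 < mlt (bc kb ρ) D.R ψ →
        s5 (fun m => 5 * nz (ip g m % 3)) (D.mm ψ) = s5 (fun m => c * nz m) (D.mm ψ) := fun ψ p => by
      rcases h6 ψ p with p | ⟨n, hn, p⟩
      · rw [p]; exact s5_zero _ _ _
      · rw [← p]; exact e n hn
    rw [cod_el, n0, ← Sm_mul, ← Sm_mul]
    exact le_antisymm (D.avg_le ρ fun ψ p => (e' ψ p).le) (D.avg_le ρ fun ψ p => (e' ψ p).ge)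
  have h8 := h7 (gv j) 2 fun n hn => (chkSm j hj n hn).2.1
  have h9 := h7 63 3 fun n hn => (chkSm j hj n hn).2.2.1
  obtain ⟨t, h11⟩ := even_cod ρ (D.el_cube 63)
  refine ⟨j, hj, by omega, fun q hq e => ?_⟩
  have h12 := (chkSm j hj _ h5).2.2.2
  have := D.mm_lt χ
  rw [show (81 * D.dd χ + D.mm χ) / 81 = D.dd χ by omega, show (81 * D.dd χ + D.mm χ) % 81 = D.mm χ by omega,
    ← hq.mm hq.norm] at h12
  exact h12 (om_inj.1 (by rw [← v_el, ← v_el, v_tw χ _ (D.el_mem _), e]))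

omit [Fintype (D.R →* kbˣ)] in
/-- **the dichotomy** -/
theorem dich (hf : Function.Injective ρ) (h0 : D.r0 ≠ 1) :
    ((∀ t, D.At t wb → 8 ≤ cod ρ (Subgroup.zpowers t)) ∧
      ∀ (a b : Y) (A : Subgroup Y), D.At a wa → D.At b wb ∨ D.At b wc → a ∈ A → b ∈ A → 12 ≤ cod ρ A) ∨
    ∃ j < 2, cod ρ (Subgroup.zpowers (D.el (gv j))) ≤ 4 ∧
      ∀ q, D.At q (wq j) → q⁻¹ * D.el (uv j) * q ≠ D.el (uv j) := by
  have := finite_char kb D.R
  have := Fintype.ofFinite (D.R →* kbˣ)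
  refine (le_or_gt 20 (D.n0 ρ)).imp (fun h => ⟨fun t ht => ?_, fun a b A ha hb h1 h2 => ?_⟩) (D.small ρ hf h0)
  · have := D.lb ρ chkLb0 (A := Subgroup.zpowers t) ((Subgroup.zpowers_le).2 ht.norm) fun w hw =>
      ⟨t, Subgroup.mem_zpowers t, List.mem_singleton.1 hw ▸ ht⟩
    omega
  · have key : ∀ j w, chkLb j 3 [wa, w, wa ++ w] = true → D.At b w → 12 ≤ cod ρ A := fun j w c hb => by
      have := D.lb ρ c (A := A ⊓ Subgroup.normalizer (D.R : Set Y)) inf_le_right fun w' hw => by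
        simp only [List.mem_cons, List.not_mem_nil, or_false] at hw
        rcases hw with rfl | rfl | rfl
        · exact ⟨a, ⟨h1, ha.norm⟩, ha⟩
        · exact ⟨b, ⟨h2, hb.norm⟩, hb⟩
        · exact ⟨a * b, ⟨mul_mem h1 h2, (ha.mul hb).norm⟩, ha.mul hb⟩
      have h3 := cod_mono (ρ := ρ) (inf_le_left : A ⊓ Subgroup.normalizer (D.R : Set Y) ≤ A)
      omega
    exact hb.elim (key 1 _ chkLb1) (key 2 _ chkLb2)

end Dat

end Cfsg.Agent.TwoF.XL.U43
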