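import Cfsg.Agent.TwoF.XL.U43.Dich
import Cfsg.Agent.TwoF.XL.U43.Mod

/-!
# TwoF XL-U43: lifts of words, the data for the weights (helper87)
-/

set_option autoImplicit false
set_option maxRecDepth 100000

namespace Cfsg.Agent.TwoF.XL.U43

open Module Gen Cfsg.Agent.SporadicStructure.PermChain

variable {Y : Type} [Group Y] {K : Subgroup Y} {π : K →* M} {φ : Y →* MulAut M}

/-- `g` is a lift of the word `l` -/
def Rep (π : K →* M) (g : Y) (l : List ℕ) : Prop := ∃ hg : g ∈ K, π ⟨g, hg⟩ = Wm l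

/-- the powers of a word -/
def pw (n : ℕ) (l : List ℕ) : List ℕ := (List.replicate n l).flatten

namespace Rep

variable {g g' : Y} {l l' : List ℕ}

theorem mem (h : Rep π g l) : g ∈ K := h.1

theorem one : Rep π 1 [] := ⟨one_mem _, map_one π⟩

theorem mul (h : Rep π g l) (h' : Rep π g' l') : Rep π (g * g') (l ++ l') :=
  ⟨mul_mem h.1 h'.1, by rw [Wm_append, ← h.2, ← h'.2, ← map_mul]; rfl⟩

theorem congr (h : Rep π g l) (e : eqB l l' = true) : Rep π g l' := ⟨h.1, h.2.trans (Wm_eq e)⟩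

theorem inv (h : Rep π g l) (e : eqB (l' ++ l) [] = true) : Rep π g⁻¹ l' :=
  ⟨inv_mem h.1, by
    have := Wm_eq e
    rw [Wm_append, ← h.2] at this
    exact (map_inv π ⟨g, h.1⟩).trans (eq_inv_of_mul_eq_one_left this).symm⟩

theorem pow (h : Rep π g l) (n : ℕ) : Rep π (g ^ n) (pw n l) := by
  induction n with
  | zero => rw [pow_zero]; exact one
  | succ n ih => rw [pow_succ']; exact h.mul ih

theorem prod {f : ℕ → Y} {w : ℕ → List ℕ} (h : ∀ s, Rep π (f s) (w s)) (l : List ℕ) :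
    Rep π (l.map f).prod (l.flatMap w) := by
  induction l with
  | nil => exact one
  | cons s l ih => rw [List.map_cons, List.prod_cons, List.flatMap_cons]; exact (h s).mul ih

variable (F : Frm K π φ)
include F

theorem exi (l : List ℕ) : ∃ g, Rep π g l := by
  obtain ⟨g, hg⟩ := F.surj (Wm l)
  exact ⟨g, g.2, hg⟩

theorem cen (h : Rep π g l) (e : eqB l [] = true) : g ∈ Subgroup.centralizer (K : Set Y) :=
  F.π_eq_one_iff.1 (h.2.trans (Wm_eq e))

theorem not_cen (h : Rep π g l) (e : eqB l [] = false) : g ∉ Subgroup.centralizer (K : Set Y) := fun h' =>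
  Wm_ne e (h.2.symm.trans (F.π_eq_one_iff (x := ⟨g, h.1⟩).2 h'))

theorem eq' (h : Rep π g l) (h' : Rep π g' l') (e : Wm l = Wm l') :
    ∃ c ∈ Subgroup.centralizer (K : Set Y), g = g' * c :=
  ⟨g'⁻¹ * g, F.π_eq_one_iff (x := ⟨g', h'.1⟩⁻¹ * ⟨g, h.1⟩).1 (by rw [map_mul, map_inv, h.2, h'.2, e, inv_mul_cancel]),
    (mul_inv_cancel_left _ _).symm⟩

theorem eq (h : Rep π g l) (h' : Rep π g' l') (e : eqB l l' = true) :
    ∃ c ∈ Subgroup.centralizer (K : Set Y), g = g' * c := eq' F h h' (Wm_eq e)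

theorem phi (h : Rep π g l) : φ g = MulAut.conj (Wm l) := h.2 ▸ F.φ_coe ⟨g, h.1⟩

end Rep

theorem eq_one_of_sq [Finite Y] (ho : ¬ 2 ∣ Nat.card (Subgroup.centralizer (K : Set Y))) {z : Y}
    (hz : z ∈ Subgroup.centralizer (K : Set Y)) (h : z * z = 1) : z = 1 := by
  by_contra e
  refine ho ?_
  have : orderOf z = 2 := orderOf_eq_prime (by rw [pow_two, h]) e
  exact this ▸ Subgroup.orderOf_dvd_natCard _ hz

/-- lifts of two commuting elements that are interchanged by a third one commute -/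
theorem comm_of_swap [Finite Y] (F : Frm K π φ) (ho : ¬ 2 ∣ Nat.card (Subgroup.centralizer (K : Set Y))) {a b : Y}
    {la lb : List ℕ} (ha : Rep π a la) (hb : Rep π b lb) (lw : List ℕ) (e1 : eqB (lw ++ la) (lb ++ lw) = true)
    (e2 : eqB (lw ++ lb) (la ++ lw) = true) (e3 : eqB (la ++ lb) (lb ++ la) = true) : a * b = b * a := by
  obtain ⟨w, hw⟩ := Rep.exi F lw
  obtain ⟨c, hc, h1⟩ := (hw.mul ha).eq F (hb.mul hw) e1
  obtain ⟨d, hd, h2⟩ := (hw.mul hb).eq F (ha.mul hw) e2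
  obtain ⟨z, hz, h3⟩ := (ha.mul hb).eq F (hb.mul ha) e3
  have k : ∀ {u g : Y}, u ∈ Subgroup.centralizer (K : Set Y) → g ∈ K → u * g = g * u := fun hu hg =>
    (Subgroup.mem_centralizer_iff.1 hu _ hg).symm
  have p1 : w * (a * b) = b * a * (w * (d * c)) := by
    rw [← mul_assoc, h1, mul_assoc (b * w), k hc hb.mem, ← mul_assoc, mul_assoc b, h2]; group
  have p2 : w * (b * a) = a * b * (w * (d * c)) := by
    rw [← mul_assoc, h2, mul_assoc (a * w), k hd ha.mem, ← mul_assoc, mul_assoc a, h1, ← k hc (F.cent hd)]; group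
  rw [h3, ← mul_assoc w, p2, h3, mul_assoc (b * a), mul_assoc (b * a), mul_right_inj,
    k hz (mul_mem hw.mem (F.cent (mul_mem hd hc))), mul_assoc, mul_eq_left] at p1
  rw [h3, eq_one_of_sq ho hz p1, mul_one]

def bw : List (List ℕ) := [[10, 2, 6, 3, 11, 5, 1], [10, 1, 5, 12, 3, 9, 0], [0, 4, 1, 1, 9, 8, 0], [4, 5, 4, 5, 5, 4]]

/-- the words of the elements of `3⁴` -/
def ew (n : ℕ) : List ℕ := pw (n % 3) (bw.getD 0 []) ++ pw (n / 3 % 3) (bw.getD 1 []) ++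
  pw (n / 9 % 3) (bw.getD 2 []) ++ pw (n / 27 % 3) (bw.getD 3 [])

theorem rep_wY {x y : Y} (hx : Rep π x [3]) (hy : Rep π y [4]) {l : List ℕ} (h : ∀ s ∈ l, s = 3 ∨ s = 4) :
    Rep π (l.map fun s => bif Nat.beq s 3 then x else y).prod l := by
  induction l with
  | nil => exact Rep.one
  | cons s l ih =>
    rw [List.map_cons, List.prod_cons]
    rcases h s List.mem_cons_self with rfl | rfl
    · exact hx.mul (ih fun t ht => h t (List.mem_cons_of_mem _ ht))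
    · exact hy.mul (ih fun t ht => h t (List.mem_cons_of_mem _ ht))

theorem exists_dat [Finite Y] (F : Frm K π φ) (ho : ¬ 2 ∣ Nat.card (Subgroup.centralizer (K : Set Y))) :
    ∃ D : Dat K, D.r0 ≠ 1 ∧ (∀ g l, (∀ s ∈ l, s = 3 ∨ s = 4) → Rep π g l → D.At g l) ∧
      ∀ n, Rep π (D.el n) (ew n) := by
  obtain ⟨x, hx⟩ := Rep.exi F [3]
  obtain ⟨y, hy⟩ := Rep.exi F [4]
  obtain ⟨c0, h0⟩ := Rep.exi F [5]
  have hx' : Rep π x⁻¹ [3, 3, 3, 3] := hx.inv (by decide +kernel)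
  have hy' : Rep π y⁻¹ [4, 4] := hy.inv (by decide +kernel)
  obtain ⟨c1, e1⟩ : ∃ c, c = x⁻¹ * c0 * x := ⟨_, rfl⟩
  obtain ⟨c2, e2⟩ : ∃ c, c = x⁻¹ * c1 * x := ⟨_, rfl⟩
  obtain ⟨c3, e3⟩ : ∃ c, c = x⁻¹ * c2 * x := ⟨_, rfl⟩
  obtain ⟨c4, e4⟩ : ∃ c, c = x⁻¹ * c3 * x := ⟨_, rfl⟩
  have e0 : c0 = x⁻¹ * c4 * x := by
    have p := Subgroup.mem_centralizer_iff.1 ((hx.pow 5).cen F (by decide +kernel)) c0 h0.mem
    rw [e4, e3, e2, e1]
    calc c0 = (x ^ 5)⁻¹ * (x ^ 5 * c0) := by group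
      _ = _ := by rw [← p]; simp only [pow_succ, pow_zero, one_mul, mul_inv_rev, mul_assoc]
  have h1 : Rep π c1 [9, 2, 4, 2, 9] := e1 ▸ ((hx'.mul h0).mul hx).congr (by decide +kernel)
  have h2 : Rep π c2 [3, 3, 3, 5, 3, 3] := e2 ▸ ((hx'.mul h1).mul hx).congr (by decide +kernel)
  have h3 : Rep π c3 [3, 3, 5, 3, 3, 3] := e3 ▸ ((hx'.mul h2).mul hx).congr (by decide +kernel)
  have h4 : Rep π c4 [3, 5, 3, 3, 3, 3] := e4 ▸ ((hx'.mul h3).mul hx).congr (by decide +kernel)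
  have cj : ∀ {a b a' b' : Y}, a * b = b * a → a' = x⁻¹ * a * x → b' = x⁻¹ * b * x → a' * b' = b' * a' :=
    fun {a b a' b'} h p q => by
      rw [p, q]
      calc _ = x⁻¹ * (a * b) * x := by group
        _ = _ := by rw [h]; group
  have k01 := comm_of_swap F ho h0 h1 [4, 2, 6, 2] (by decide +kernel) (by decide +kernel) (by decide +kernel)
  have k02 := comm_of_swap F ho h0 h2 [3, 4, 3, 4] (by decide +kernel) (by decide +kernel) (by decide +kernel)
  have k12 := cj k01 e1 e2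
  have k23 := cj k12 e2 e3
  have k34 := cj k23 e3 e4
  have k40 := cj k34 e4 e0
  have k13 := cj k02 e1 e3
  have k24 := cj k13 e2 e4
  have k30 := cj k24 e3 e0
  have k41 := cj k30 e4 e1
  have kk := comm_closure (S := {c0, c1, c2, c3, c4}) (by
    rintro a (rfl | rfl | rfl | rfl | rfl) b (rfl | rfl | rfl | rfl | rfl) <;>
      first | rfl | assumption | (symm; assumption))
  have km : ∀ a ∈ ({c0 * c1⁻¹, c1 * c2⁻¹, c2 * c3⁻¹, c3 * c4⁻¹} : Set Y),
      a ∈ Subgroup.closure ({c0, c1, c2, c3, c4} : Set Y) := by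
    rintro a (rfl | rfl | rfl | rfl) <;>
      exact mul_mem (Subgroup.subset_closure (by simp)) (inv_mem (Subgroup.subset_closure (by simp)))
  have cb : ∀ {a b : Y}, b = x⁻¹ * a * x → a ^ 3 = c0 ^ 3 → b ^ 3 = c0 ^ 3 := fun {a b} e h => by
    rw [e, show x⁻¹ * a * x = x⁻¹ * a * x⁻¹⁻¹ by rw [inv_inv], conj_pow, h, inv_inv,
      Dat.conj_c hx.mem ((h0.pow 3).cen F (by decide +kernel))]
  have q1 := cb e1 rfl
  have q2 := cb e2 q1
  have q3 := cb e3 q2
  have q4 := cb e4 q3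
  have cu : ∀ {a b : Y}, a * b = b * a → a ^ 3 = c0 ^ 3 → b ^ 3 = c0 ^ 3 → (a * b⁻¹) ^ 3 = 1 := fun {a b} h p q => by
    rw [(show Commute a b from h).inv_right.mul_pow, inv_pow, p, q, mul_inv_cancel]
  have r0 : Rep π (c0 * c1⁻¹) (bw.getD 0 []) :=
    (h0.mul (h1.inv (l' := pw 2 [9, 2, 4, 2, 9]) (by decide +kernel))).congr (by decide +kernel)
  have r1 : Rep π (c1 * c2⁻¹) (bw.getD 1 []) :=
    (h1.mul (h2.inv (l' := pw 2 [3, 3, 3, 5, 3, 3]) (by decide +kernel))).congr (by decide +kernel)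
  have r2 : Rep π (c2 * c3⁻¹) (bw.getD 2 []) :=
    (h2.mul (h3.inv (l' := pw 2 [3, 3, 5, 3, 3, 3]) (by decide +kernel))).congr (by decide +kernel)
  have r3 : Rep π (c3 * c4⁻¹) (bw.getD 3 []) :=
    (h3.mul (h4.inv (l' := pw 2 [3, 5, 3, 3, 3, 3]) (by decide +kernel))).congr (by decide +kernel)
  obtain ⟨z0, g0, y0⟩ := ((hy'.mul r0).mul hy).eq F r0 (by decide +kernel)
  obtain ⟨z1, g1, y1⟩ := ((hy'.mul r1).mul hy).eq F r1 (by decide +kernel)
  obtain ⟨z2, g2, y2⟩ := ((hy'.mul r2).mul hy).eq F (r2.mul r3) (by decide +kernel)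
  obtain ⟨z3, g3, y3⟩ := ((hy'.mul r3).mul hy).eq F ((r0.mul (r1.pow 2)).mul r3) (by decide +kernel)
  refine ⟨{ r0 := c0 * c1⁻¹, r1 := c1 * c2⁻¹, r2 := c2 * c3⁻¹, r3 := c3 * c4⁻¹, x := x, y := y, z0 := z0, z1 := z1
            z2 := z2, z3 := z3, cent := F.cent, odd := ho, rK := ?_, xK := hx.mem, yK := hy.mem, h0 := g0, h1 := g1
            h2 := g2, h3 := g3, comm := fun a ha b hb => kk a (km a ha) b (km b hb), cube := ?_, x0 := ?_, x1 := ?_
            x2 := ?_, x3 := ?_, y0 := y0, y1 := y1, y2 := y2, y3 := y3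
            hrel := (rep_wY hx hy (by decide)).cen F (by decide +kernel) },
    fun e => r0.not_cen F (by decide +kernel) ((show c0 * c1⁻¹ = 1 from e) ▸ one_mem _), fun g l hl hg => hg.eq' F (rep_wY hx hy hl) rfl,
    fun n => (((r0.pow _).mul (r1.pow _)).mul (r2.pow _)).mul (r3.pow _)⟩
  · rintro a (rfl | rfl | rfl | rfl)
    exacts [r0.mem, r1.mem, r2.mem, r3.mem]
  · rintro a (rfl | rfl | rfl | rfl)
    exacts [cu k01 rfl q1, cu k12 q1 q2, cu k23 q2 q3, cu k34 q3 q4]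
  · conv_rhs => rw [e2]; enter [1]; rw [e1]
    group
  · conv_rhs => rw [e3]; enter [1]; rw [e2]
    group
  · conv_rhs => rw [e4]; enter [1]; rw [e3]
    group
  · calc _ = (x⁻¹ * c3 * x) * (x⁻¹ * c4 * x)⁻¹ := by group
      _ = _ := by rw [← e4, ← e0]; group

end Cfsg.Agent.TwoF.XL.U43
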