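import Cfsg.Agent.TwoF.XL.U43.Small
import Cfsg.Agent.TwoF.XL.U43.Cert
import Cfsg.Agent.TwoF.XL.Abs
import Cfsg.Agent.TwoF.Gen.BCub
import Cfsg.Agent.OddHalf.D6.QThree.U43Tw
import Cfsg.Agent.Mrg.Omega.TwoF.RkPSU

/-!
# TwoF XL-U43: the row of `U₄(3)` in characteristic two (helper87)
-/

set_option autoImplicit false
set_option maxRecDepth 100000

namespace Cfsg.Agent.TwoF.XL.U43

open Module Gen Cfsg.Agent.SporadicStructure PermChain FieldNine Cfsg.Agent.HN.PC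

theorem one_class_M {s : M} (h2 : s * s = 1) (h1 : s ≠ 1) : ∃ g, g * s * g⁻¹ = Wm wb := by
  obtain ⟨e⟩ := iso K9.card_K9'
  have : CharP K9 3 := (CharP.charP_iff_prime_eq_zero Nat.prime_three).2 (by decide)
  have key : ∀ t : M, t * t = 1 → t ≠ 1 → ∃ g, g * _ * g⁻¹ = e.symm t := fun t p q =>
    OddHalf.D6.QThree.U43Tw.one_class K9.card_K9 (e.symm t) (by rw [← map_mul, p, map_one])
      fun r => q (e.symm.injective (r.trans (map_one _).symm))
  obtain ⟨a, ha⟩ := key s h2 h1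
  obtain ⟨b, hb⟩ := key (Wm wb) (by rw [← Wm_append]; exact Wm_eq (l' := []) (by decide +kernel))
    (Wm_ne (l' := []) (by decide +kernel))
  refine ⟨e (b * a⁻¹), e.symm.injective ?_⟩
  rw [map_mul, map_mul, map_inv, MulEquiv.symm_apply_apply, ← ha, ← hb]
  group

theorem rank_M {B : Subgroup (MulAut M)} (h : ∀ x ∈ B, x * x = 1) : Nat.card B ≤ 2 ^ 5 := by
  obtain ⟨e⟩ := iso K9.card_K9'
  have := Omega.TwoF.RkPSU.rkAut (n := 4) K9.card_K9' (by decide) (by norm_num)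
    (B.map (MulAut.congr e.symm).toMonoidHom) (by
      rintro _ ⟨x, hx, rfl⟩
      rw [← map_mul, h x hx, map_one])
  rwa [Subgroup.card_map_of_injective (MulAut.congr e.symm).injective] at this

theorem exists_notMem {Y : Type} [Group Y] {B : Subgroup Y} (s : Finset Y) (h : s.card < Nat.card B) :
    ∃ a ∈ B, a ∉ s := by
  by_contra e
  push Not at e
  have := Set.ncard_le_ncard (s := (B : Set Y)) (t := s) e
  rw [Set.ncard_coe_finset, ← Nat.card_coe_set_eq] at this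
  exact absurd this (not_le.2 h)

theorem Rp.inv {q : MulAut M} {g : Pm} (h : Rp q g) : Rp q⁻¹ g⁻¹ := fun s => by
  have := h (q⁻¹ s)
  rw [MulAut.apply_inv_self] at this
  rw [this]; group

variable {Y : Type} [Group Y] [Finite Y] {K : Subgroup Y} {V : Type} [AddCommGroup V] [Module (ZMod 2) V] [Finite V]
  {ρ : Representation (ZMod 2) Y V} {π : K →* M} {φ : Y →* MulAut M}

omit [Finite Y] in
/-- an element of order four has larger codimension than its square -/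
theorem cod_sq_lt (hf : Function.Injective ρ) {v : Y} (h4 : v ^ 2 ^ 2 = 1) (h1 : v ≠ 1) :
    cod ρ (Subgroup.zpowers (v ^ 2)) < cod ρ (Subgroup.zpowers v) := by
  by_contra e
  have h := fx_eq_of_cod_le (ρ := ρ) (Subgroup.zpowers_le.2 (pow_mem (Subgroup.mem_zpowers v) 2)) (not_lt.1 e)
  have k : ∀ u, (ρ v - 1) ((ρ v - 1) u) = 0 → (ρ v - 1) u = 0 := fun u hu => by
    rw [← mem_fx_zpowers', h, mem_fx_zpowers', pow_two, Gen.mul_sub_one, hu, add_zero, ← two_smul (ZMod 2),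
      show (2 : ZMod 2) = 0 from rfl, zero_smul]
  have p := sub_one_pow (ρ := ρ) (p := 2) h4
  refine h1 (hf (LinearMap.ext fun u => ?_))
  have := k u (k _ (k _ (LinearMap.congr_fun p u)))
  rw [map_one]
  exact sub_eq_zero.1 this

omit [Finite Y] [Finite V] in
theorem Rep.conj {g k : Y} {l lk l' : List ℕ} (hg : Rep π g l) (hk : Rep π k lk)
    (e : Wm (lk ++ l) = Wm (l' ++ lk)) : Rep π (k * g * k⁻¹) l' :=
  ⟨mul_mem (mul_mem hk.1 hg.1) (inv_mem hk.1), by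
    rw [Wm_append, Wm_append, ← hg.2, ← hk.2] at e
    refine Eq.trans ?_ (mul_inv_eq_iff_eq_mul.2 e)
    rw [← map_inv, ← map_mul, ← map_mul]; rfl⟩

section big

variable (H : Sit 2 K ρ π φ) (hB : Big ρ π)
include H hB

omit [Finite V] in
theorem eight_le {t : Y} (hK : t ∈ K) (h2 : t ^ 2 = 1) (h1 : t ≠ 1) : 8 ≤ cod ρ (Subgroup.zpowers t) := by
  obtain ⟨g, hg⟩ := one_class_M (s := π ⟨t, hK⟩) (by
    rw [← map_mul, ← map_one π]; exact congrArg π (Subtype.ext ((pow_two t).symm.trans h2))) fun e =>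
      h1 (H.eq_one_of_mem_centralizer (n := 1) h2 (H.π_eq_one_iff.1 e))
  obtain ⟨g, rfl⟩ := H.surj g
  rw [← cod_zpowers_conj (g : Y) t]
  refine hB.1 _ ⟨mul_mem (mul_mem g.2 hK) (inv_mem g.2), ?_⟩
  rw [← hg, ← map_inv, ← map_mul, ← map_mul]; rfl

theorem le_of_cycle {w : K} {p : Fin 280} :
    (((π w : Pm) ^ 2) p = p → (π w : Pm) p ≠ p → 8 ≤ cod ρ (Subgroup.zpowers (w : Y))) ∧
    (((π w : Pm) ^ 4) p = p → ((π w : Pm) ^ 2) p ≠ p → 9 ≤ cod ρ (Subgroup.zpowers (w : Y))) := by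
  have h0 : orderOf (w : Y) ≠ 0 := (orderOf_pos _).ne'
  have hp : MulAction.period (π w : Pm) p ∣ orderOf (w : Y) := MulAction.pow_smul_eq_iff_period_dvd.1 (by
    rw [← Subgroup.coe_pow, ← map_pow, Subgroup.orderOf_coe, pow_orderOf_eq_one, map_one]; rfl)
  refine ⟨fun h2 h1 => ?_, fun h4 h2 => ?_⟩
  · have a : MulAction.period (π w : Pm) p ∣ 2 := MulAction.pow_smul_eq_iff_period_dvd.1 h2
    have b : ¬ MulAction.period (π w : Pm) p ∣ 1 := fun e => h1 (by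
      have := MulAction.pow_smul_eq_iff_period_dvd.2 e
      rwa [pow_one] at this)
    rw [((Nat.dvd_prime Nat.prime_two).1 a).resolve_left fun e => b (e ▸ dvd_rfl)] at hp
    have o := orderOf_pow_orderOf_div h0 hp
    refine (eight_le H hB (pow_mem w.2 _) (o ▸ pow_orderOf_eq_one _) fun e => ?_).trans (cod_pow_le _ _)
    rw [e, orderOf_one] at o
    omega
  · have a : MulAction.period (π w : Pm) p ∣ 2 ^ 2 := MulAction.pow_smul_eq_iff_period_dvd.1 h4
    have b : ¬ MulAction.period (π w : Pm) p ∣ 2 := fun e => h2 (MulAction.pow_smul_eq_iff_period_dvd.2 e)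
    obtain ⟨i, hi, e⟩ := (Nat.dvd_prime_pow Nat.prime_two).1 a
    have : i = 2 := by
      by_contra q
      exact b (e ▸ (pow_dvd_pow 2 (by omega : i ≤ 1)))
    rw [e, this] at hp
    have o := orderOf_pow_orderOf_div h0 hp
    have h4 : ((w : Y) ^ (orderOf (w : Y) / 2 ^ 2)) ^ 2 ^ 2 = 1 :=
      orderOf_dvd_iff_pow_eq_one.1 o.dvd
    have h2 : ((w : Y) ^ (orderOf (w : Y) / 2 ^ 2)) ^ 2 ≠ 1 := fun e => by
      have := orderOf_dvd_of_pow_eq_one e
      rw [o] at this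
      omega
    have c1 := eight_le H hB (pow_mem (pow_mem w.2 _) 2) (by rw [← pow_mul]; exact h4) h2
    have c2 := cod_sq_lt H.faithful h4 fun e => h2 (by rw [e, one_pow])
    have c3 := cod_pow_le (ρ := ρ) (w : Y) (orderOf (w : Y) / 2 ^ 2)
    omega

omit hB [Finite Y] [Finite V] in
theorem exists_comm {a : Y} {e : ℕ} (h : Rp (φ a) (el e)) (h2 : el e * el e = 1) {k : List ℕ × List ℕ × ℕ}
    (hk : k ∈ K4 ++ K2) : ∃ (w : K) (x : Y), (w : Y) = a * x * a⁻¹ * x⁻¹ ∧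
      ∀ p : Fin 280, ((π w : Pm) p : ℕ) = cv e k p := by
  obtain ⟨x, hx⟩ := Rep.exi H.toFrm k.1
  have hx' := hx.inv (chkK k hk).1
  have hm := H.normal.conj_mem x hx.1 a
  refine ⟨⟨_, hm⟩ * ⟨_, hx'.1⟩, x, rfl, fun p => ?_⟩
  rw [map_mul, ← H.conj a ⟨x, hx.1⟩ ⟨_, hm⟩ rfl, Subgroup.coe_mul, h, hx.2, hx'.2, inv_eq_of_mul_eq_one_right h2]
  simp only [Equiv.Perm.mul_apply, el, W_spec, Wm_spec, cv]

theorem le_cod_inv {a : Y} {e : ℕ} (he : e < 1024) (h : Rp (φ a) (el e)) (h2 : el e * el e = 1) (h0 : e ≠ 0) :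
    4 ≤ cod ρ (Subgroup.zpowers a) ∧ (e ∈ Bad ∨ 5 ≤ cod ρ (Subgroup.zpowers a)) := by
  rcases (inv_spec he (sq_of h2) h0).2.2 with ⟨k, hk, c⟩ | ⟨hb, k, hk, c⟩
  · obtain ⟨w, x, e1, e2⟩ := exists_comm H h h2 (List.mem_append_left _ hk)
    have hp := (chkK k (List.mem_append_left _ hk)).2
    simp only [c4, force_eq, Bool.and_eq_true, Bool.not_eq_true', Nat.beq_eq] at c
    have := (le_of_cycle H hB (w := w) (p := ⟨_, hp⟩)).2 (Fin.ext (by
      simp only [pow_succ, pow_zero, one_mul, Equiv.Perm.mul_apply, e2]; exact c.2)) fun q => by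
        have q' := congrArg Fin.val q
        simp only [pow_succ, pow_zero, one_mul, Equiv.Perm.mul_apply, e2] at q'
        rw [q', Nat.beq_refl] at c
        exact Bool.noConfusion c.1
    have h3 := cod_zpowers_commutator_le (ρ := ρ) a x
    rw [← e1] at h3
    omega
  · obtain ⟨w, x, e1, e2⟩ := exists_comm H h h2 (List.mem_append_right _ hk)
    have hp := (chkK k (List.mem_append_right _ hk)).2
    simp only [c2, force_eq, Bool.and_eq_true, Bool.not_eq_true', Nat.beq_eq] at c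
    have := (le_of_cycle H hB (w := w) (p := ⟨_, hp⟩)).1 (Fin.ext (by
      simp only [pow_succ, pow_zero, one_mul, Equiv.Perm.mul_apply, e2]; exact c.2)) fun q => by
        have q' := congrArg Fin.val q
        simp only [e2] at q'
        rw [q', Nat.beq_refl] at c
        exact Bool.noConfusion c.1
    have h3 := cod_zpowers_commutator_le (ρ := ρ) a x
    rw [← e1] at h3
    exact ⟨by omega, Or.inl hb⟩

omit hB [Finite Y] [Finite V] in
theorem rep_low {a : Y} {e : ℕ} (he : e < 128) (h : Rp (φ a) (el e)) : Rep π a (wd 7 e) := by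
  rw [el_low he] at h
  have hK : a ∈ K := H.mem_inn_iff.1 ⟨_, (Rp.conj _).ext h⟩
  refine ⟨hK, Subtype.ext (Rp.unique ?_ h)⟩
  exact (H.φ_coe ⟨a, hK⟩ : φ a = _) ▸ Rp.conj _

omit H [Finite Y] [Finite V] in
theorem twelve_of_conj {a b k : Y} {A : Subgroup Y} {w : List ℕ} (hw : w = wb ∨ w = wc)
    (ha : Rep π (k * a * k⁻¹) wa) (hb : Rep π (k * b * k⁻¹) w) (h1 : a ∈ A) (h2 : b ∈ A) :
    12 ≤ cod ρ A := by
  rw [← cod_conj k A]
  exact hB.2 _ _ _ ha (hw.imp (fun e => e ▸ hb) fun e => e ▸ hb) ⟨a, h1, rfl⟩ ⟨b, h2, rfl⟩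

omit [Finite Y] [Finite V] in
theorem twelve_I {a b : Y} {e f : ℕ} {A : Subgroup Y} (ha : Rep π a (wd 7 e)) (hb : Rep π b (wd 7 f)) (h1 : a ∈ A)
    (h2 : b ∈ A) (h : TI e f) : 12 ≤ cod ρ A := by
  obtain ⟨k, w, hw, e1, e2⟩ := h
  obtain ⟨k', hk⟩ := Rep.exi H.toFrm k
  exact twelve_of_conj hB hw (ha.conj hk e1) (hb.conj hk e2) h1 h2

theorem nine_II {a b : Y} {e f : ℕ} {A : Subgroup Y} (ha : Rep π a (wd 7 e)) (hb : Rep π b (wd 7 f)) (h1 : a ∈ A)
    (h2 : b ∈ A) (a2 : a ^ 2 = 1) (a1 : a ≠ 1) (h : TII e f) : 9 ≤ cod ρ A := by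
  by_contra c
  obtain ⟨k, x, w, hw, e0, e1, e2⟩ := h
  obtain ⟨k', hk⟩ := Rep.exi H.toFrm k
  obtain ⟨x', hx⟩ := Rep.exi H.toFrm x
  have h8 := eight_le H hB ha.1 a2 a1
  have hc : a * x' = x' * a := congrArg Subtype.val (comm_of_coprime (π := π) H.ker_π.le (a := ⟨a, ha.1⟩)
    (b := ⟨x', hx.1⟩) (by rw [ha.2, hx.2, ← Wm_append, ← Wm_append, e0]) (n := 2)
    (by rw [← map_pow, ← map_one π]; exact congrArg π (Subtype.ext a2))
    (by rw [H.ker_π]; exact (Nat.Prime.coprime_iff_not_dvd Nat.prime_two).2 H.cop))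
  have h3 := conj_mem_cl_of_comm (ρ := ρ) h1 (by omega) hc.symm (le_cl A h2)
  have h4 := hb.conj (hk.mul hx) e2
  rw [show k' * x' * b * (k' * x')⁻¹ = k' * (x' * b * x'⁻¹) * k'⁻¹ by group] at h4
  have := twelve_of_conj hB hw (hb.conj hk e1) h4 (le_cl (ρ := ρ) A h2) h3
  rw [cod_cl] at this
  omega

theorem noOff {A : Subgroup Y} (hA : Off 2 ρ A) (hP : ∀ a ∈ A, ∃ e < 1024, Rp (φ a) (el e)) : False := by
  classical
  obtain ⟨r, r0, hr, hc⟩ := hA.exists_card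
  have hp := elemAb_isPGroup hA.1
  have a2 : ∀ a ∈ A, a * a = 1 := fun a ha => (pow_two a).symm.trans (hA.1.2 a ha)
  have r5 : r ≤ 5 := by
    have := rank_M (B := A.map φ) (by rintro _ ⟨a, ha, rfl⟩; rw [← map_mul, a2 a ha, map_one])
    rw [H.card_map H.toFrm hp, hr] at this
    exact (Nat.pow_le_pow_iff_right (by norm_num)).1 this
  choose! ε h1 h2 using hP
  have hm : ∀ a ∈ A, ∀ b ∈ A, el (ε a) * el (ε b) = el (ε (a * b)) := fun a ha b hb =>
    ((h2 a ha).mul (h2 b hb)).unique (map_mul φ a b ▸ h2 _ (mul_mem ha hb))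
  have hi : ∀ a ∈ A, ∀ b ∈ A, el (ε a) = el (ε b) → a = b := fun a ha b hb e => by
    have := H.eq_one_of_φ H.toFrm (n := 1) (hA.1.2 _ (mul_mem ha hb))
      (by rw [map_mul, (h2 a ha).ext (e ▸ h2 b hb), ← map_mul, a2 b hb, map_one])
    exact mul_right_cancel (this.trans (a2 b hb).symm)
  have h1' : el (ε 1) = 1 := (h2 1 (one_mem _)).unique (map_one φ ▸ Rp.one)
  have hs : ∀ a ∈ A, el (ε a) * el (ε a) = 1 := fun a ha => by rw [hm a ha a ha, a2 a ha, h1']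
  have h0 : ∀ a ∈ A, a ≠ 1 → ε a ≠ 0 := fun a ha h e => h (hi a ha 1 (one_mem _) (by rw [e, h1', el_zero]))
  have hl : ∀ a ∈ A, ε a / 128 < 6 := fun a ha => by
    by_cases e : ε a = 0
    · omega
    · have := (inv_spec (h1 a ha) (sq_of (hs a ha)) e).1
      omega
  let D : Subgroup Y :=
    { carrier := {a | ∃ g ∈ Pc sP 7, Rp (φ a) g}
      one_mem' := ⟨1, one_mem _, map_one φ ▸ Rp.one⟩
      mul_mem' := fun ⟨g, p, q⟩ ⟨g', p', q'⟩ => ⟨g * g', mul_mem p p', map_mul φ _ _ ▸ q.mul q'⟩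
      inv_mem' := fun ⟨g, p, q⟩ => ⟨g⁻¹, inv_mem p, map_inv φ _ ▸ q.inv⟩ }
  have hD : ∀ a ∈ A ⊓ D, ε a < 128 := fun a ⟨ha, g, p, q⟩ => by
    obtain ⟨e, he, rfl⟩ := exists_wd (by norm_num) p
    have he : e < 128 := he
    rwa [el_inj (h1 a ha) (by omega) (((h2 a ha).unique q).trans
      ((coe_Wm fun s hs => wd_lt hs).symm.trans (el_low he).symm))]
  have i6 := relIndex_le_card (A := A) (D := D) (fun a => (⟨ε a / 128, hl a a.2⟩ : Fin 6)) fun a b e => by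
    have e' : ε a / 128 = ε b / 128 := congrArg Fin.val e
    refine ⟨W (wd 7 (ε b)) * (W (wd 7 (ε a)))⁻¹, mul_mem (wd_mem _ _) (inv_mem (wd_mem _ _)), ?_⟩
    have := (h2 b b.2).mul (h2 a a.2).inv
    rw [el_eq, el_eq, e', mul_inv_rev, mul_assoc, mul_inv_cancel_left, coe_Wm fun s hs => wd_lt hs,
      coe_Wm fun s hs => wd_lt hs, ← map_inv, ← map_mul] at this
    rwa [elemAb_comm hA.1 (inv_mem a.2) b.2]
  rw [Nat.card_eq_fintype_card, Fintype.card_fin] at i6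
  have hn : Nat.card ↥(A ⊓ D) * D.relIndex A = 2 ^ r := by
    rw [← hr, ← Nat.card_congr (Subgroup.subgroupOfEquivOfLe (inf_le_left : A ⊓ D ≤ A)).toEquiv,
      Subgroup.inf_subgroupOf_left]
    exact Subgroup.card_mul_index _
  have i4 : 2 ^ r ≤ Nat.card ↥(A ⊓ D) * 4 := by
    obtain ⟨i, -, e⟩ := (Nat.dvd_prime_pow Nat.prime_two).1 (Dvd.intro_left _ hn)
    rw [← hn]
    refine Nat.mul_le_mul_left _ ?_
    rw [e] at i6 ⊢
    have : i ≤ 2 := by
      by_contra q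
      have := Nat.pow_le_pow_right (show 0 < 2 by norm_num) (show 3 ≤ i by omega)
      omega
    exact Nat.pow_le_pow_right (show 0 < 2 by norm_num) this
  have hb := fun a (ha : a ∈ A) (h : a ≠ 1) => le_cod_inv H hB (h1 a ha) (h2 a ha) (hs a ha) (h0 a ha h)
  have hcd := fun a (ha : a ∈ A) => cod_le_of_mem (ρ := ρ) ha
  by_cases r2 : r ≤ 2
  · obtain ⟨a, ha, p⟩ := exists_notMem (B := A) {1} (by
      rw [hr, Finset.card_singleton]; exact Nat.one_lt_two_pow (by omega))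
    rw [Finset.mem_singleton] at p
    have q := (hb a ha p).1
    have q' := hcd a ha
    obtain rfl : r = 2 := by omega
    obtain ⟨b, hb', p'⟩ := exists_notMem (B := A) {1, a} (by rw [hr]; exact Finset.card_le_two.trans_lt (by norm_num))
    simp only [Finset.mem_insert, Finset.mem_singleton, not_or] at p'
    have bad : ∀ c ∈ A, c ≠ 1 → ε c ∈ Bad := fun c hc' h => (hb c hc' h).2.resolve_right fun e => by
      have := hcd c hc'
      omega
    exact bad_mul (bad a ha p) (bad b hb' p'.1) (bad _ (mul_mem ha hb') fun e =>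
      p'.2 (mul_left_cancel (e.trans (a2 a ha).symm))) (hm a ha b hb')
  have i8 : 2 ^ 3 ≤ 2 ^ r := Nat.pow_le_pow_right (by norm_num) (by omega)
  obtain ⟨a, ha, p⟩ := exists_notMem (B := A ⊓ D) {1} (by rw [Finset.card_singleton]; omega)
  rw [Finset.mem_singleton] at p
  have rp := fun c (hc : c ∈ A ⊓ D) => rep_low H (hD c hc) (h2 c hc.1)
  have q := (eight_le H hB (rp a ha).1 (hA.1.2 a ha.1) p).trans (hcd a ha.1)
  have i16 : 2 ^ 4 ≤ 2 ^ r := Nat.pow_le_pow_right (by norm_num) (by omega)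
  obtain ⟨b, hb', p'⟩ := exists_notMem (B := A ⊓ D) {1, a} (Finset.card_le_two.trans_lt (by omega))
  simp only [Finset.mem_insert, Finset.mem_singleton, not_or] at p'
  have mI : ∀ c ∈ A ⊓ D, c ≠ 1 → ε c ∈ I0 := fun c hc h =>
    (inv_spec (h1 c hc.1) (sq_of (hs c hc.1)) (h0 c hc.1 h)).2.1 (hD c hc)
  have ne : ∀ c ∈ A, ∀ d ∈ A, c ≠ d → ε c ≠ ε d := fun c hc d hd h e => h (hi c hc d hd (by rw [e]))
  have cm : ∀ c ∈ A, ∀ d ∈ A, cmt (ε c) (ε d) = true := fun c hc d hd =>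
    cmt_of (by rw [hm c hc d hd, hm d hd c hc, elemAb_comm hA.1 hc hd])
  have nI : ∀ c ∈ A ⊓ D, ∀ d ∈ A ⊓ D, isI (ε c) (ε d) ≠ true := fun c hc d hd e => by
    have := (isI_spec (hD c hc) (hD d hd) e).elim (twelve_I H hB (rp c hc) (rp d hd) hc.1 hd.1)
      (twelve_I H hB (rp d hd) (rp c hc) hd.1 hc.1)
    omega
  obtain ⟨s1, s2⟩ := (pair_spec (mI a ha p) (mI b hb' p'.1) (ne a ha.1 b hb'.1 (Ne.symm p'.2))
    (cm a ha.1 b hb'.1)).resolve_left (nI a ha b hb')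
  have q9 := (isII_spec (hD a ha) (hD b hb') s1).elim
    (nine_II H hB (rp a ha) (rp b hb') ha.1 hb'.1 (hA.1.2 a ha.1) p)
    (nine_II H hB (rp b hb') (rp a ha) hb'.1 ha.1 (hA.1.2 b hb'.1) p'.1)
  obtain rfl : r = 5 := by omega
  obtain ⟨c, hc', p''⟩ := exists_notMem (B := A ⊓ D) {1, a, b, a * b} (Finset.card_le_four.trans_lt (by omega))
  simp only [Finset.mem_insert, Finset.mem_singleton, not_or] at p''
  rcases s2 _ (mI c hc' p''.1) (ne c hc'.1 a ha.1 p''.2.1) (ne c hc'.1 b hb'.1 p''.2.2.1) (cm a ha.1 c hc'.1)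
    (cm b hb'.1 c hc'.1) with e | e | e
  · exact nI a ha c hc' e
  · exact nI b hb' c hc' e
  · exact p''.2.2.2 (hi c hc'.1 _ (mul_mem ha.1 hb'.1) ((el_mul_eq (h1 c hc'.1) e).symm.trans (hm a ha.1 b hb'.1)))

end big

omit [Finite Y] [Finite V] in
theorem sit_tr (H : Sit 2 K ρ π φ) (α : MulAut M) :
    Sit 2 K ρ (α.toMonoidHom.comp π) ((MulAut.conj α).toMonoidHom.comp φ) :=
  { H.toStp with
    surj := α.surjective.comp H.surj
    ker_π := by rw [← MonoidHom.comap_ker, (MonoidHom.ker_eq_bot_iff _).2 α.injective]; exact H.ker_π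
    conj := fun y x x' h => by
      show α (φ y (α⁻¹ (α (π x)))) = α (π x')
      rw [MulAut.inv_apply_self, H.conj y x x' h]
    ker_φ := by rw [← MonoidHom.comap_ker, (MonoidHom.ker_eq_bot_iff _).2 (MulAut.conj α).injective]; exact H.ker_φ }

theorem main (H : Sit 2 K ρ π φ) {A : Subgroup Y} (hA : Off 2 ρ A) : ∃ B ≤ K, Off 2 ρ B ∧ Cub ρ B := by
  obtain ⟨α, hα⟩ := syl ((elemAb_isPGroup hA.1).map φ)
  exact (big_or_off (sit_tr H α)).resolve_left fun hB =>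
    noOff (sit_tr H α) hB hA fun a ha => hα _ ⟨a, ha, rfl⟩

/-- **the row of `U₄(3)` in characteristic two** -/
theorem row_U43 {F : Type} [Field F] [Fintype F] (hF : Fintype.card F = 3 ^ 2) : Row 2 (PSU 4 F 3) := by
  obtain ⟨e⟩ := iso hF
  refine Row.of_equiv ⟨row88_of_sit fun Y _ _ V _ _ _ K ρ π φ H A hA => ?_,
    row89_of_sit fun Y _ _ V _ _ _ K ρ π φ H A hA _ _ _ _ => ?_⟩ e
  · obtain ⟨B, -, h⟩ := main H hA
    exact ⟨B, h⟩
  · obtain ⟨B, h1, h2, -⟩ := main H hA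
    exact ⟨B, h1, h2⟩

end Cfsg.Agent.TwoF.XL.U43
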