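import Cfsg.Agent.TwoF.XL.U43.Lift

/-!
# TwoF XL-U43: the six-dimensional module of `3 · U₄(3)` has a quadratic offender (helper87)
-/

set_option autoImplicit false
set_option maxRecDepth 100000

namespace Cfsg.Agent.TwoF.XL.U43

open Module Gen Cfsg.Agent.SporadicStructure.PermChain

def k2 (j : ℕ) : List ℕ := bif Nat.beq j 0 then [10] else [11]
def k2' (j : ℕ) : List ℕ := bif Nat.beq j 0 then [10] else [11, 7]
def k3 (j : ℕ) : List ℕ := bif Nat.beq j 0 then [11] else [0]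
def k3' (j : ℕ) : List ℕ := bif Nat.beq j 0 then [11, 7] else [1]
def gA (j : ℕ) : List ℕ := bif Nat.beq j 0 then [1, 1, 2, 2, 0, 1, 0, 0, 1, 2, 2, 1, 2, 1] else
  [1, 2, 1, 2, 1, 0, 2, 0, 1, 0, 2, 1, 0, 2, 1, 0]
def gB (j : ℕ) : List ℕ := bif Nat.beq j 0 then [0, 1, 1, 0, 2, 0, 0, 2, 2, 1, 0, 2, 1, 0] else
  [1, 2, 0, 0, 2, 1, 0, 2, 2, 0, 2, 2, 1, 0, 2]
/-- the three conjugates -/
def gw (j s : ℕ) : List ℕ := bif Nat.beq s 0 then ew (gv j) else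
  bif Nat.beq s 1 then k2 j ++ ew (gv j) ++ k2' j else k3 j ++ ew (gv j) ++ k3' j

theorem chkGen : ∀ j < 2, eqB (k2' j ++ k2 j) [] = true ∧ eqB (k3' j ++ k3 j) [] = true ∧
    eqB ((gA j).flatMap (gw j)) [0] = true ∧ eqB ((gB j).flatMap (gw j)) [2] = true ∧ eqB (ew (gv j)) [] = false := by
  decide +kernel

/-- the generators of `2⁴` -/
def sw (j i : ℕ) : List ℕ := (bif Nat.beq j 0 then [[0, 12, 1], [12, 1, 1, 10, 7], [2, 5, 0, 2, 12, 0], [3, 11, 9, 4, 1, 12]]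
  else [[1, 9, 0], [1, 12, 6, 0], [7, 5, 0, 11, 8, 7], [11, 7, 1, 7, 0, 11]]).getD i []
def mw (j v : ℕ) : List ℕ := (List.range 4).flatMap fun i => bif Nat.testBit v i then sw j i else []
def ru (j i : ℕ) : ℕ := (bif Nat.beq j 0 then [10, 7, 1, 3] else [15, 9, 4, 8]).getD i 0
def rq (j i : ℕ) : ℕ := (bif Nat.beq j 0 then [7, 13, 2, 1] else [13, 10, 8, 12]).getD i 0

theorem chkE : ∀ j < 2, (∀ i < 4, eqB (sw j i ++ sw j i) [] = true ∧
    (∀ i' < 4, eqB (sw j i ++ sw j i') (sw j i' ++ sw j i) = true) ∧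
    eqB (ew (uv j) ++ sw j i) (mw j (ru j i) ++ ew (uv j)) = true ∧
    eqB (wq j ++ sw j i) (mw j (rq j i) ++ wq j) = true) ∧
    (∀ a < 8, ∀ b < 8, eqB (mw j a) (mw j b) = true → a = b) ∧
    eqB (ew (uv j) ++ wq j) (wq j ++ ew (uv j)) = true ∧ ∀ s ∈ wq j, s = 3 ∨ s = 4 := by decide +kernel

/-- the group `2⁴` -/
def E (j : ℕ) : Subgroup M := Subgroup.closure ((fun i => Wm (sw j i)) '' {i | i < 4})

theorem Wm_flatMap_mem {H : Subgroup M} {l : List ℕ} {w : ℕ → List ℕ} (h : ∀ s ∈ l, Wm (w s) ∈ H) :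
    Wm (l.flatMap w) ∈ H := by
  induction l with
  | nil => exact one_mem _
  | cons s l ih =>
    rw [List.flatMap_cons, Wm_append]
    exact mul_mem (h s List.mem_cons_self) (ih fun t ht => h t (List.mem_cons_of_mem _ ht))

theorem mw_mem (j v : ℕ) : Wm (mw j v) ∈ E j := Wm_flatMap_mem fun i hi => by
  cases Nat.testBit v i
  · exact one_mem _
  · exact Subgroup.subset_closure ⟨i, List.mem_range.1 hi, rfl⟩

theorem E_elem {j : ℕ} (hj : j < 2) : IsElementaryAbelian 2 (E j) := by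
  have hc : ∀ a ∈ E j, ∀ b ∈ E j, a * b = b * a := comm_closure (by
    rintro _ ⟨i, hi, rfl⟩ _ ⟨i', hi', rfl⟩
    rw [← Wm_append, ← Wm_append]
    exact Wm_eq (((chkE j hj).1 i hi).2.1 i' hi'))
  refine elemAb_of hc fun a ha => ?_
  induction ha using Subgroup.closure_induction with
  | mem a ha =>
    obtain ⟨i, hi, rfl⟩ := ha
    rw [pow_two, ← Wm_append]
    exact Wm_eq ((chkE j hj).1 i hi).1
  | one => exact one_pow _
  | mul a b ha hb h1 h2 => rw [(show Commute a b from hc a ha b hb).mul_pow, h1, h2, mul_one]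
  | inv a _ h => rw [inv_pow, h, inv_one]

theorem E_card {j : ℕ} (hj : j < 2) : 8 ≤ Nat.card (E j) := by
  have := Nat.card_le_card_of_injective (fun a : Fin 8 => (⟨Wm (mw j a), mw_mem j a⟩ : E j)) fun a b e =>
    Fin.ext ((chkE j hj).2.1 a a.2 b b.2 (eqB_iff.2 (congrArg Subtype.val e)))
  rwa [Nat.card_eq_fintype_card, Fintype.card_fin] at this

theorem E_norm {j : ℕ} {l : List ℕ} {r : ℕ → ℕ} (h : ∀ i < 4, eqB (l ++ sw j i) (mw j (r i) ++ l) = true) :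
    ∀ s ∈ E j, MulAut.conj (Wm l) s ∈ E j := HN.PC.conj_closure (by
  rintro _ ⟨i, hi, rfl⟩
  have e := Wm_eq (h i hi)
  rw [Wm_append, Wm_append] at e
  rw [e, mul_inv_cancel_right]
  exact mw_mem _ _)

variable {Y : Type} [Group Y] [Finite Y] {K : Subgroup Y} {V : Type} [AddCommGroup V] [Module (ZMod 2) V] [Finite V]
  {ρ : Representation (ZMod 2) Y V} {π : K →* M} {φ : Y →* MulAut M}

omit [Finite Y] in
theorem finrank_le (H : Sit 2 K ρ π φ) {j : ℕ} (hj : j < 2) {g : Y} (hg : Rep π g (ew (gv j)))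
    (hc : cod ρ (Subgroup.zpowers g) ≤ 4) : finrank (ZMod 2) V ≤ 12 := by
  obtain ⟨c2, c3, cA, cB, c0⟩ := chkGen j hj
  obtain ⟨a, ha⟩ := Rep.exi H.toFrm (k2 j)
  obtain ⟨b, hb⟩ := Rep.exi H.toFrm (k3 j)
  set N := Subgroup.zpowers g ⊔ (Subgroup.zpowers (a * g * a⁻¹) ⊔ Subgroup.zpowers (b * g * b⁻¹)) with hN
  let f : ℕ → Y := fun s => bif Nat.beq s 0 then g else bif Nat.beq s 1 then a * g * a⁻¹ else b * g * b⁻¹
  have h1 : ∀ s, Rep π (f s) (gw j s) ∧ f s ∈ N := fun s => by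
    unfold f gw
    cases Nat.beq s 0
    · cases Nat.beq s 1
      · exact ⟨(hb.mul hg).mul (hb.inv c3), Subgroup.mem_sup_right (Subgroup.mem_sup_right (Subgroup.mem_zpowers _))⟩
      · exact ⟨(ha.mul hg).mul (ha.inv c2), Subgroup.mem_sup_right (Subgroup.mem_sup_left (Subgroup.mem_zpowers _))⟩
    · exact ⟨hg, Subgroup.mem_sup_left (Subgroup.mem_zpowers _)⟩
  have h2 : ∀ l l', eqB (List.flatMap (gw j) l) l' = true → Wm l' ∈ (N.subgroupOf K).map π := fun l l' e => by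
    have p := (Rep.prod (fun s => (h1 s).1) l).congr e
    exact ⟨⟨_, p.1⟩, Subgroup.list_prod_mem N fun u hu => by
      obtain ⟨s, _, rfl⟩ := List.mem_map.1 hu
      exact (h1 s).2, p.2⟩
  have h3 := eq_top_of_gens (h2 _ _ cA) (h2 _ _ cB)
  have hK : N ≤ K := sup_le (Subgroup.zpowers_le.2 (h1 0).1.mem)
    (sup_le (Subgroup.zpowers_le.2 (h1 1).1.mem) (Subgroup.zpowers_le.2 (h1 2).1.mem))
  have h4 : K ≤ Subgroup.normalizer (N : Set Y) := fun k hk => by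
    obtain ⟨n, hn, e⟩ : π ⟨k, hk⟩ ∈ (N.subgroupOf K).map π := h3 ▸ Subgroup.mem_top _
    have hc : (n : Y)⁻¹ * k ∈ Subgroup.centralizer (K : Set Y) :=
      H.π_eq_one_iff (x := n⁻¹ * ⟨k, hk⟩).1 (by rw [map_mul, map_inv, e, inv_mul_cancel])
    rw [← mul_inv_cancel_left (n : Y) k]
    exact mul_mem (Subgroup.le_normalizer hn)
      (Subgroup.centralizer_le_normalizer _ (Subgroup.centralizer_le hK hc))
  have h5 : K ≤ N := (H.normal_cases h4).resolve_right fun e => hg.not_cen H.toFrm c0 (e (h1 0).2)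
  have h6 := cod_sup_le (ρ := ρ) (Subgroup.zpowers g)
    (Subgroup.zpowers (a * g * a⁻¹) ⊔ Subgroup.zpowers (b * g * b⁻¹))
  have h7 := cod_sup_le (ρ := ρ) (Subgroup.zpowers (a * g * a⁻¹)) (Subgroup.zpowers (b * g * b⁻¹))
  rw [cod_zpowers_conj, cod_zpowers_conj] at h7
  rw [← hN, H.cod_of_le h5] at h6
  omega

/-- a Heisenberg group in the normaliser of a `2`-group -/
theorem six_le (hf : Function.Injective ρ) {B : Subgroup Y} (hB : IsPGroup 2 B) {u q z : Y}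
    (hu : u ∈ Subgroup.normalizer (B : Set Y)) (hq : q ∈ Subgroup.normalizer (B : Set Y))
    (hz : ∀ b ∈ B, b * z = z * b) (h1 : u * z = z * u) (h2 : q * z = z * q) (h3 : q * u * q⁻¹ = u * z)
    (h4 : u ^ 3 = 1) (h5 : z ^ 3 = 1) (h6 : z ≠ 1) : 6 ≤ finrank (ZMod 2) (fx ρ B) := by
  have hz' : z ∈ Subgroup.normalizer (B : Set Y) :=
    Subgroup.centralizer_le_normalizer _ (Subgroup.mem_centralizer_iff.2 hz)
  have hU : Inv ρ (Subgroup.normalizer (B : Set Y)) (fx ρ B) := inv_fx le_rfl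
  have e := heis_cod_eq (ρ := resOn ρ hU) (y := ⟨u, hu⟩) (z := ⟨z, hz'⟩) (q := ⟨q, hq⟩) (Subtype.ext h1)
    (Subtype.ext h2) (Subtype.ext h3) Nat.prime_three (by decide) (Subtype.ext h4) (Subtype.ext h5)
  obtain ⟨t, ht⟩ := even_cod (resOn ρ hU) (a := ⟨z, hz'⟩) (Subtype.ext h5)
  have h0 : cod (resOn ρ hU) (Subgroup.zpowers ⟨z, hz'⟩) ≠ 0 := fun e0 => by
    have e1 : resOn ρ hU ⟨z, hz'⟩ = 1 := cod_eq_zero_iff.1 e0 (Subgroup.mem_zpowers _)
    have hW : Inv ρ B (cm ρ ⊤ (Subgroup.zpowers z)) := inv_cm (fun b hb => Subgroup.centralizer_le_normalizer _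
      (Subgroup.mem_centralizer_iff.2 fun a ha => by
        obtain ⟨n, rfl⟩ := ha
        exact ((show Commute b z from hz b hb).zpow_right n).eq.symm)) (inv_top B)
    obtain ⟨w, hw, w0⟩ := (Submodule.ne_bot_iff _).1 (inf_fx_ne_bot hB hW fun e2 =>
      h6 (Subgroup.zpowers_eq_bot.1 (eq_bot_of_fx_eq_top hf (eq_top_iff.2 (cm_eq_bot_iff.1 e2)))))
    have e2 : ρ z w = w := congrArg Subtype.val (LinearMap.congr_fun e1 ⟨w, hw.2⟩)
    obtain ⟨v, rfl⟩ : w ∈ LinearMap.range (ρ z - 1) := cm_zpowers (ρ := ρ) z ▸ hw.1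
    exact w0 (sub_eq_zero.2 (eq_of_sub_one_sq (p := 2) h5 (by norm_num) e2))
  have : cod (resOn ρ hU) (Subgroup.zpowers ⟨z, hz'⟩) ≤ finrank (ZMod 2) (fx ρ B) := Nat.sub_le _ _
  omega

theorem off_of_small (H : Sit 2 K ρ π φ) {j : ℕ} (hj : j < 2) {g u : Y} (hg : Rep π g (ew (gv j)))
    (hc : cod ρ (Subgroup.zpowers g) ≤ 4) (hu : Rep π u (ew (uv j))) (h3 : u ^ 3 = 1)
    (hq : ∀ q, Rep π q (wq j) → q⁻¹ * u * q ≠ u) : ∃ B ≤ K, Off 2 ρ B ∧ Cub ρ B := by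
  obtain ⟨B, hBK, hp, -, hcard, -, hn, he⟩ := H.exists_lift (elemAb_isPGroup (E_elem hj))
  obtain ⟨q, hq'⟩ := Rep.exi H.toFrm (wq j)
  obtain ⟨z, hz, e⟩ := (hu.mul hq').eq H.toFrm (hq'.mul hu) (chkE j hj).2.2.1
  have e' : q⁻¹ * u * q = u * z := by rw [mul_assoc, e]; group
  have k := Subgroup.mem_centralizer_iff.1 hz
  have h6 := six_le H.faithful hp (u := u) (q := q⁻¹) (z := z)
    (hn u (by rw [hu.phi H.toFrm]; exact E_norm fun i hi => ((chkE j hj).1 i hi).2.2.1))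
    (inv_mem (hn q (by rw [hq'.phi H.toFrm]; exact E_norm fun i hi => ((chkE j hj).1 i hi).2.2.2)))
    (fun b hb => k b (hBK hb)) (k u hu.mem) (k _ (inv_mem hq'.mem)) (by rw [inv_inv, e']) h3
    (Dat.cube_z e' h3 h3 hu.mem hz) fun e1 => hq q hq' (by rw [e', e1, mul_one])
  have h12 := finrank_le H hj hg hc
  have h7 : cod ρ B ≤ 6 := by unfold cod; omega
  have h8 := E_card hj
  refine ⟨B, hBK, ⟨he (E_elem hj), fun e1 => ?_, ?_⟩, by_contra fun e1 => ?_⟩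
  · rw [e1, Subgroup.card_bot] at hcard
    omega
  · exact (Nat.pow_le_pow_right (by norm_num) h7).trans
      ((show 2 ^ 6 = 8 ^ 2 by norm_num).le.trans (Nat.pow_le_pow_left (hcard ▸ h8) 2))
  · have := seven_le_cod (he (E_elem hj)) e1
    omega

/-- the lower bounds -/
def Big (ρ : Representation (ZMod 2) Y V) (π : K →* M) : Prop :=
  (∀ t, Rep π t wb → 8 ≤ cod ρ (Subgroup.zpowers t)) ∧
    ∀ (a b : Y) (A : Subgroup Y), Rep π a wa → Rep π b wb ∨ Rep π b wc → a ∈ A → b ∈ A → 12 ≤ cod ρ A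

theorem big_or_off (H : Sit 2 K ρ π φ) : Big ρ π ∨ ∃ B ≤ K, Off 2 ρ B ∧ Cub ρ B := by
  obtain ⟨D, h0, h1, h2⟩ := exists_dat H.toFrm (H.card_centralizer ▸ H.cop)
  refine (D.dich ρ H.faithful h0).imp (fun h => ⟨fun t ht => h.1 t (h1 _ _ (by decide) ht),
    fun a b A ha hb => h.2 a b A (h1 _ _ (by decide) ha) (hb.imp (h1 _ _ (by decide)) (h1 _ _ (by decide)))⟩) ?_
  rintro ⟨j, hj, h3, h4⟩
  exact off_of_small H hj (h2 _) h3 (h2 _) (D.el_cube _) fun q hq => h4 q (h1 _ _ (chkE j hj).2.2.2 hq)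

end Cfsg.Agent.TwoF.XL.U43
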