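import Cfsg.Agent.TwoF.XL.Defs
import Cfsg.Agent.TwoF.XL.U43.Row

/-!
# TwoF / XL: the row `U₄(3)`, `p = 2`, in the form of the interface (helper87)
-/

set_option autoImplicit false

namespace Cfsg.Agent.TwoF.XL

theorem ufour : UFour := fun _ _ _ hF => U43.row_U43 hF

end Cfsg.Agent.TwoF.XL
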