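import Cfsg.Agent.TwoF.Gen.BCov
import Cfsg.Agent.TwoF.XL.U43.Lab
import Cfsg.Agent.HN.PC

/-!
# TwoF XL-U43: the weights of the preimage of `3⁴` under `A₆` (helper87)
-/

set_option autoImplicit false

namespace Cfsg.Agent.TwoF.XL.U43

open Module Gen Cfsg.Agent.SporadicStructure.PermChain

/-- the algebraic closure -/
abbrev kb : Type := AlgebraicClosure (ZMod 2)

theorem exists_om : ∃ ω : kbˣ, orderOf ω = 3 ∧ ∀ u : kbˣ, u ^ 3 = 1 → ∃ i < 3, ω ^ i = u := by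
  have : NeZero ((3 : ℕ) : kb) := ⟨fun h => absurd ((CharP.cast_eq_zero_iff kb 2 3).1 h) (by norm_num)⟩
  obtain ⟨ζ, hζ⟩ := HasEnoughRootsOfUnity.exists_primitiveRoot kb 3
  lift ζ to kbˣ using hζ.isUnit (by norm_num)
  refine ⟨ζ, (IsPrimitiveRoot.coe_units_iff.1 hζ).eq_orderOf.symm, fun u hu => ?_⟩
  obtain ⟨i, hi, e⟩ := hζ.eq_pow_of_pow_eq_one (ξ := (u : kb)) (by rw [← Units.val_pow_eq_pow_val, hu, Units.val_one])
  exact ⟨i, hi, Units.ext (by rw [Units.val_pow_eq_pow_val, e])⟩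

/-- a primitive cube root of unity -/
noncomputable def om : kbˣ := exists_om.choose

open Classical in
/-- the logarithm -/
noncomputable def lg (u : kbˣ) : ℕ := if h : ∃ i < 3, om ^ i = u then h.choose else 0

theorem lg_lt (u : kbˣ) : lg u < 3 := by
  unfold lg; split_ifs with h
  · exact h.choose_spec.1
  · norm_num

theorem om_lg {u : kbˣ} (h : u ^ 3 = 1) : u = om ^ lg u := by
  have h' : ∃ i < 3, om ^ i = u := exists_om.choose_spec.2 u h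
  rw [lg, dif_pos h']; exact h'.choose_spec.2.symm

theorem om_inj {a b : ℕ} : om ^ a = om ^ b ↔ a % 3 = b % 3 := by
  rw [pow_eq_pow_iff_modEq, show orderOf om = 3 from exists_om.choose_spec.1]; rfl

theorem lg_eq {u : kbˣ} {n : ℕ} (h : u = om ^ n) : lg u = n % 3 := by
  have h3 : u ^ 3 = 1 := by rw [h, ← pow_mul, ← pow_zero om, om_inj]; omega
  rw [← om_inj.1 ((om_lg h3).symm.trans h), Nat.mod_eq_of_lt (lg_lt u)]

theorem comm_closure {Y : Type*} [Group Y] {S : Set Y} (h : ∀ a ∈ S, ∀ b ∈ S, a * b = b * a) :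
    ∀ a ∈ Subgroup.closure S, ∀ b ∈ Subgroup.closure S, a * b = b * a := by
  have h1 : Subgroup.closure S ≤ Subgroup.centralizer S :=
    (Subgroup.closure_le _).2 fun a ha => Subgroup.mem_centralizer_iff.2 fun b hb => h b hb a ha
  have h2 : Subgroup.closure S ≤ Subgroup.centralizer (Subgroup.closure S : Set Y) :=
    (Subgroup.closure_le _).2 fun a ha => Subgroup.mem_centralizer_iff.2 fun b hb =>
      (Subgroup.mem_centralizer_iff.1 (h1 hb) a ha).symm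
  exact fun a ha b hb => (Subgroup.mem_centralizer_iff.1 (h2 ha) b hb).symm

variable {Y : Type} [Group Y]

/-- lifts of the generators of `3⁴ : A₆` -/
structure Dat (K : Subgroup Y) where
  r0 : Y
  r1 : Y
  r2 : Y
  r3 : Y
  x : Y
  y : Y
  z0 : Y
  z1 : Y
  z2 : Y
  z3 : Y
  cent : Subgroup.centralizer (K : Set Y) ≤ K
  odd : ¬ 2 ∣ Nat.card (Subgroup.centralizer (K : Set Y))
  rK : ∀ a ∈ ({r0, r1, r2, r3} : Set Y), a ∈ K
  xK : x ∈ K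
  yK : y ∈ K
  h0 : z0 ∈ Subgroup.centralizer (K : Set Y)
  h1 : z1 ∈ Subgroup.centralizer (K : Set Y)
  h2 : z2 ∈ Subgroup.centralizer (K : Set Y)
  h3 : z3 ∈ Subgroup.centralizer (K : Set Y)
  comm : ∀ a ∈ ({r0, r1, r2, r3} : Set Y), ∀ b ∈ ({r0, r1, r2, r3} : Set Y), a * b = b * a
  cube : ∀ a ∈ ({r0, r1, r2, r3} : Set Y), a ^ 3 = 1
  x0 : x⁻¹ * r0 * x = r1
  x1 : x⁻¹ * r1 * x = r2
  x2 : x⁻¹ * r2 * x = r3
  x3 : x⁻¹ * r3 * x = (r0 * r1 * r2 * r3)⁻¹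
  y0 : y⁻¹ * r0 * y = r0 * z0
  y1 : y⁻¹ * r1 * y = r1 * z1
  y2 : y⁻¹ * r2 * y = r2 * r3 * z2
  y3 : y⁻¹ * r3 * y = r0 * r1 ^ 2 * r3 * z3
  hrel : (rel.map fun s => bif Nat.beq s 3 then x else y).prod ∈ Subgroup.centralizer (K : Set Y)

namespace Dat

variable {K : Subgroup Y} (D : Dat K)

/-- the abelian group -/
def R : Subgroup Y := Subgroup.closure ({D.r0, D.r1, D.r2, D.r3} ∪ (Subgroup.centralizer (K : Set Y) : Set Y))

theorem r_mem {a : Y} (h : a ∈ ({D.r0, D.r1, D.r2, D.r3} : Set Y)) : a ∈ D.R := Subgroup.subset_closure (Or.inl h)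
theorem c_mem {a : Y} (h : a ∈ Subgroup.centralizer (K : Set Y)) : a ∈ D.R := Subgroup.subset_closure (Or.inr h)
theorem m0 : D.r0 ∈ D.R := D.r_mem (by simp)
theorem m1 : D.r1 ∈ D.R := D.r_mem (by simp)
theorem m2 : D.r2 ∈ D.R := D.r_mem (by simp)
theorem m3 : D.r3 ∈ D.R := D.r_mem (by simp)

theorem R_le : D.R ≤ K := (Subgroup.closure_le _).2 fun a h => h.elim (D.rK a) fun h => D.cent h

theorem R_comm : ∀ a ∈ D.R, ∀ b ∈ D.R, a * b = b * a := comm_closure fun a ha b hb => by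
  rcases ha with ha | ha
  · rcases hb with hb | hb
    · exact D.comm a ha b hb
    · exact Subgroup.mem_centralizer_iff.1 hb a (D.rK a ha)
  · exact (Subgroup.mem_centralizer_iff.1 ha b (hb.elim (D.rK b) fun h => D.cent h)).symm

theorem R_card [Finite Y] : (Nat.card D.R : kb) ≠ 0 := fun h => by
  obtain ⟨a, ha⟩ := exists_prime_orderOf_dvd_card' 2 ((CharP.cast_eq_zero_iff kb 2 _).1 h)
  have key : ∀ g ∈ D.R, g ^ (3 * Nat.card (Subgroup.centralizer (K : Set Y))) = 1 := fun g hg => by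
    induction hg using Subgroup.closure_induction with
    | mem g hg =>
      rcases hg with hg | hg
      · rw [pow_mul, D.cube g hg, one_pow]
      · rw [pow_mul']
        exact (congrArg (· ^ 3) (congrArg Subtype.val (pow_card_eq_one' (x := ⟨g, hg⟩)))).trans (one_pow 3)
    | one => exact one_pow _
    | mul a b ha hb h1 h2 => rw [(show Commute a b from D.R_comm a ha b hb).mul_pow, h1, h2, mul_one]
    | inv a _ h => rw [inv_pow, h, inv_one]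
  have := orderOf_dvd_of_pow_eq_one (key a a.2)
  rw [Subgroup.orderOf_coe, ha] at this
  exact D.odd ((Nat.Coprime.dvd_mul_left (by norm_num)).1 this)

theorem conj_c {g c : Y} (hg : g ∈ K) (hc : c ∈ Subgroup.centralizer (K : Set Y)) : g⁻¹ * c * g = c := by
  rw [mul_assoc, ← Subgroup.mem_centralizer_iff.1 hc g hg, inv_mul_cancel_left]

theorem norm_of [Finite Y] {g : Y} (hg : g ∈ K) (h : ∀ a ∈ ({D.r0, D.r1, D.r2, D.r3} : Set Y), g⁻¹ * a * g ∈ D.R) :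
    g ∈ Subgroup.normalizer (D.R : Set Y) := by
  refine inv_mem_iff.1 (Subgroup.mem_normalizer_fintype (HN.PC.conj_closure fun a ha => ?_))
  rw [inv_inv]
  rcases ha with ha | ha
  · exact h a ha
  · rw [conj_c hg ha]; exact D.c_mem ha

theorem xN [Finite Y] : D.x ∈ Subgroup.normalizer (D.R : Set Y) := D.norm_of D.xK (by
  rintro a (rfl | rfl | rfl | rfl)
  · rw [D.x0]; exact D.m1
  · rw [D.x1]; exact D.m2
  · rw [D.x2]; exact D.m3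
  · rw [D.x3]; exact inv_mem (mul_mem (mul_mem (mul_mem D.m0 D.m1) D.m2) D.m3))

theorem yN [Finite Y] : D.y ∈ Subgroup.normalizer (D.R : Set Y) := D.norm_of D.yK (by
  rintro a (rfl | rfl | rfl | rfl)
  · rw [D.y0]; exact mul_mem D.m0 (D.c_mem D.h0)
  · rw [D.y1]; exact mul_mem D.m1 (D.c_mem D.h1)
  · rw [D.y2]; exact mul_mem (mul_mem D.m2 D.m3) (D.c_mem D.h2)
  · rw [D.y3]; exact mul_mem (mul_mem (mul_mem D.m0 (pow_mem D.m1 2)) D.m3) (D.c_mem D.h3))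

/-! ### labels -/

open Classical in
/-- the value of a character -/
noncomputable def v (χ : D.R →* kbˣ) (g : Y) : kbˣ := if h : g ∈ D.R then χ ⟨g, h⟩ else 1

variable {D}

theorem v_eq (χ : D.R →* kbˣ) {g : Y} (h : g ∈ D.R) : D.v χ g = χ ⟨g, h⟩ := dif_pos h

theorem v_mul (χ : D.R →* kbˣ) {a b : Y} (ha : a ∈ D.R) (hb : b ∈ D.R) : D.v χ (a * b) = D.v χ a * D.v χ b := by
  rw [v_eq χ ha, v_eq χ hb, v_eq χ (mul_mem ha hb), ← map_mul]; rfl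

theorem v_pow (χ : D.R →* kbˣ) {a : Y} (ha : a ∈ D.R) (n : ℕ) : D.v χ (a ^ n) = D.v χ a ^ n := by
  rw [v_eq χ ha, v_eq χ (pow_mem ha n), ← map_pow]; rfl

theorem v_inv (χ : D.R →* kbˣ) {a : Y} (ha : a ∈ D.R) : D.v χ a⁻¹ = (D.v χ a)⁻¹ := by
  rw [v_eq χ ha, v_eq χ (inv_mem ha), ← map_inv]; rfl

theorem v_sq (χ : D.R →* kbˣ) {a : Y} (ha : a ∈ D.R) : D.v (χ ^ 2) a = D.v χ a ^ 2 := by
  rw [v_eq χ ha, v_eq _ ha]; rfl

theorem v_tw (χ : D.R →* kbˣ) {g a : Y} (hg : g ∈ Subgroup.normalizer (D.R : Set Y)) (ha : a ∈ D.R) :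
    D.v (tw g hg χ) a = D.v χ (g⁻¹ * a * g) := by
  rw [v_eq _ ha, v_eq _ (conj_mem_of_normalizer hg ha)]; rfl

theorem v_om (χ : D.R →* kbˣ) {a : Y} (ha : a ∈ D.R) (h : a ^ 3 = 1) : D.v χ a = om ^ lg (D.v χ a) :=
  om_lg (by rw [← v_pow χ ha, h, v_eq χ (one_mem _)]; exact map_one χ)

theorem cube_z {g r e z : Y} (h : g⁻¹ * r * g = e * z) (hr : r ^ 3 = 1) (he : e ^ 3 = 1) (heK : e ∈ K)
    (hz : z ∈ Subgroup.centralizer (K : Set Y)) : z ^ 3 = 1 := by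
  have h1 : (e * z) ^ 3 = 1 := by
    rw [← h, show g⁻¹ * r * g = g⁻¹ * r * g⁻¹⁻¹ by rw [inv_inv], conj_pow, hr, mul_one, mul_inv_cancel]
  rwa [(show Commute e z from Subgroup.mem_centralizer_iff.1 hz e heK).mul_pow, he, one_mul] at h1

theorem cube_mul {a b : Y} (ha : a ∈ D.R) (hb : b ∈ D.R) (h1 : a ^ 3 = 1) (h2 : b ^ 3 = 1) : (a * b) ^ 3 = 1 := by
  rw [(show Commute a b from D.R_comm a ha b hb).mul_pow, h1, h2, mul_one]

theorem cube_pow {a : Y} (h : a ^ 3 = 1) (n : ℕ) : (a ^ n) ^ 3 = 1 := by rw [← pow_mul, mul_comm, pow_mul, h, one_pow]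

variable (D)
theorem c0 : D.r0 ^ 3 = 1 := D.cube _ (by simp)
theorem c1 : D.r1 ^ 3 = 1 := D.cube _ (by simp)
theorem c2 : D.r2 ^ 3 = 1 := D.cube _ (by simp)
theorem c3 : D.r3 ^ 3 = 1 := D.cube _ (by simp)
theorem d0 : D.z0 ^ 3 = 1 := cube_z D.y0 D.c0 D.c0 (D.R_le D.m0) D.h0
theorem d1 : D.z1 ^ 3 = 1 := cube_z D.y1 D.c1 D.c1 (D.R_le D.m1) D.h1
theorem d2 : D.z2 ^ 3 = 1 := cube_z D.y2 D.c2 (cube_mul D.m2 D.m3 D.c2 D.c3) (D.R_le (mul_mem D.m2 D.m3)) D.h2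
theorem d3 : D.z3 ^ 3 = 1 :=
  cube_z D.y3 D.c3 (cube_mul (mul_mem D.m0 (pow_mem D.m1 2)) D.m3 (cube_mul D.m0 (pow_mem D.m1 2) D.c0
    (cube_pow D.c1 2)) D.c3) (D.R_le (mul_mem (mul_mem D.m0 (pow_mem D.m1 2)) D.m3)) D.h3

/-- the restriction to the complement -/
noncomputable def mm (χ : D.R →* kbˣ) : ℕ :=
  cd (lg (D.v χ D.r0)) (lg (D.v χ D.r1)) (lg (D.v χ D.r2)) (lg (D.v χ D.r3))

/-- the translation -/
noncomputable def dd (χ : D.R →* kbˣ) : ℕ :=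
  cd (lg (D.v χ D.z0)) (lg (D.v χ D.z1)) (lg (D.v χ D.z2)) (lg (D.v χ D.z3))

theorem mm_lt (χ : D.R →* kbˣ) : D.mm χ < 81 := cd_lt (lg_lt _) (lg_lt _) (lg_lt _) (lg_lt _)
theorem dd_lt (χ : D.R →* kbˣ) : D.dd χ < 81 := cd_lt (lg_lt _) (lg_lt _) (lg_lt _) (lg_lt _)

theorem dd_tw (χ : D.R →* kbˣ) {g : Y} (hg : g ∈ Subgroup.normalizer (D.R : Set Y)) (hK : g ∈ K) :
    D.dd (tw g hg χ) = D.dd χ := by
  rw [dd, v_tw χ hg (D.c_mem D.h0), v_tw χ hg (D.c_mem D.h1), v_tw χ hg (D.c_mem D.h2), v_tw χ hg (D.c_mem D.h3),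
    conj_c hK D.h0, conj_c hK D.h1, conj_c hK D.h2, conj_c hK D.h3, dd]

theorem ng_cd (a b c d : kbˣ) (ha : a = om ^ lg a) (hb : b = om ^ lg b) (hc : c = om ^ lg c) (hd : d = om ^ lg d) :
    cd (lg (a ^ 2)) (lg (b ^ 2)) (lg (c ^ 2)) (lg (d ^ 2)) = ng (cd (lg a) (lg b) (lg c) (lg d)) := by
  have k : ∀ u : kbˣ, u = om ^ lg u → lg (u ^ 2) = 2 * lg u % 3 := fun u h =>
    lg_eq (by rw [mul_comm, pow_mul, ← h])
  rw [ng, cd0 (lg_lt _), cd1 (lg_lt _) (lg_lt _), cd2 (lg_lt _) (lg_lt _) (lg_lt _),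
    cd3 (lg_lt _) (lg_lt _) (lg_lt _) (lg_lt _), k a ha, k b hb, k c hc, k d hd]

theorem mm_sq (χ : D.R →* kbˣ) : D.mm (χ ^ 2) = ng (D.mm χ) := by
  rw [mm, v_sq χ D.m0, v_sq χ D.m1, v_sq χ D.m2, v_sq χ D.m3]
  exact ng_cd _ _ _ _ (v_om χ D.m0 D.c0) (v_om χ D.m1 D.c1) (v_om χ D.m2 D.c2) (v_om χ D.m3 D.c3)

theorem dd_sq (χ : D.R →* kbˣ) : D.dd (χ ^ 2) = ng (D.dd χ) := by
  rw [dd, v_sq χ (D.c_mem D.h0), v_sq χ (D.c_mem D.h1), v_sq χ (D.c_mem D.h2), v_sq χ (D.c_mem D.h3)]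
  exact ng_cd _ _ _ _ (v_om χ (D.c_mem D.h0) D.d0) (v_om χ (D.c_mem D.h1) D.d1) (v_om χ (D.c_mem D.h2) D.d2)
    (v_om χ (D.c_mem D.h3) D.d3)

/-- the elements of the complement -/
def el (n : ℕ) : Y := D.r0 ^ (n % 3) * D.r1 ^ (n / 3 % 3) * D.r2 ^ (n / 9 % 3) * D.r3 ^ (n / 27 % 3)

theorem el_mem (n : ℕ) : D.el n ∈ D.R :=
  mul_mem (mul_mem (mul_mem (pow_mem D.m0 _) (pow_mem D.m1 _)) (pow_mem D.m2 _)) (pow_mem D.m3 _)

theorem el_cube (n : ℕ) : D.el n ^ 3 = 1 :=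
  cube_mul (mul_mem (mul_mem (pow_mem D.m0 _) (pow_mem D.m1 _)) (pow_mem D.m2 _)) (pow_mem D.m3 _)
    (cube_mul (mul_mem (pow_mem D.m0 _) (pow_mem D.m1 _)) (pow_mem D.m2 _)
      (cube_mul (pow_mem D.m0 _) (pow_mem D.m1 _) (cube_pow D.c0 _) (cube_pow D.c1 _)) (cube_pow D.c2 _))
    (cube_pow D.c3 _)

theorem v_el (χ : D.R →* kbˣ) (n : ℕ) : D.v χ (D.el n) = om ^ ip n (D.mm χ) := by
  rw [el, v_mul χ (mul_mem (mul_mem (pow_mem D.m0 _) (pow_mem D.m1 _)) (pow_mem D.m2 _)) (pow_mem D.m3 _),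
    v_mul χ (mul_mem (pow_mem D.m0 _) (pow_mem D.m1 _)) (pow_mem D.m2 _), v_mul χ (pow_mem D.m0 _) (pow_mem D.m1 _),
    v_pow χ D.m0, v_pow χ D.m1, v_pow χ D.m2, v_pow χ D.m3, ip, mm, cd0 (lg_lt _), cd1 (lg_lt _) (lg_lt _),
    cd2 (lg_lt _) (lg_lt _) (lg_lt _), cd3 (lg_lt _) (lg_lt _) (lg_lt _) (lg_lt _)]
  simp only [pow_add, pow_mul']
  rw [← v_om χ D.m0 D.c0, ← v_om χ D.m1 D.c1, ← v_om χ D.m2 D.c2, ← v_om χ D.m3 D.c3]

variable [Finite Y]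

theorem mm_x (χ : D.R →* kbˣ) : D.mm (tw D.x D.xN χ) = al (D.mm χ) := by
  rw [mm, v_tw χ _ D.m0, v_tw χ _ D.m1, v_tw χ _ D.m2, v_tw χ _ D.m3, D.x0, D.x1, D.x2, D.x3, mm, al, cd0 (lg_lt _),
    cd1 (lg_lt _) (lg_lt _), cd2 (lg_lt _) (lg_lt _) (lg_lt _), cd3 (lg_lt _) (lg_lt _) (lg_lt _) (lg_lt _)]
  congr 1
  refine lg_eq ?_
  rw [v_inv χ (mul_mem (mul_mem (mul_mem D.m0 D.m1) D.m2) D.m3), v_mul χ (mul_mem (mul_mem D.m0 D.m1) D.m2) D.m3,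
    v_mul χ (mul_mem D.m0 D.m1) D.m2, v_mul χ D.m0 D.m1, inv_eq_iff_mul_eq_one]
  conv_lhs => enter [1]; rw [v_om χ D.m0 D.c0, v_om χ D.m1 D.c1, v_om χ D.m2 D.c2, v_om χ D.m3 D.c3]
  rw [← pow_add, ← pow_add, ← pow_add, ← pow_add, ← pow_zero om, om_inj]
  omega

theorem mm_y (χ : D.R →* kbˣ) : D.mm (tw D.y D.yN χ) = be (D.dd χ) (D.mm χ) := by
  rw [mm, v_tw χ _ D.m0, v_tw χ _ D.m1, v_tw χ _ D.m2, v_tw χ _ D.m3, D.y0, D.y1, D.y2, D.y3, mm, dd, be,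
    cd0 (lg_lt _), cd1 (lg_lt _) (lg_lt _), cd2 (lg_lt _) (lg_lt _) (lg_lt _),
    cd3 (lg_lt _) (lg_lt _) (lg_lt _) (lg_lt _), cd0 (lg_lt _), cd1 (lg_lt _) (lg_lt _),
    cd2 (lg_lt _) (lg_lt _) (lg_lt _), cd3 (lg_lt _) (lg_lt _) (lg_lt _) (lg_lt _)]
  congr 1 <;> refine lg_eq ?_
  · rw [v_mul χ D.m0 (D.c_mem D.h0), pow_add, ← v_om χ D.m0 D.c0, ← v_om χ (D.c_mem D.h0) D.d0]
  · rw [v_mul χ D.m1 (D.c_mem D.h1), pow_add, ← v_om χ D.m1 D.c1, ← v_om χ (D.c_mem D.h1) D.d1]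
  · rw [v_mul χ (mul_mem D.m2 D.m3) (D.c_mem D.h2), v_mul χ D.m2 D.m3, pow_add, pow_add, ← v_om χ D.m2 D.c2,
      ← v_om χ D.m3 D.c3, ← v_om χ (D.c_mem D.h2) D.d2]
  · rw [v_mul χ (mul_mem (mul_mem D.m0 (pow_mem D.m1 2)) D.m3) (D.c_mem D.h3),
      v_mul χ (mul_mem D.m0 (pow_mem D.m1 2)) D.m3, v_mul χ D.m0 (pow_mem D.m1 2), v_pow χ D.m1, pow_add, pow_add,
      pow_add, pow_mul', ← v_om χ D.m0 D.c0, ← v_om χ D.m1 D.c1, ← v_om χ D.m3 D.c3, ← v_om χ (D.c_mem D.h3) D.d3]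

/-! ### words -/

omit [Finite Y] in
/-- the lift of a word in `x`, `y` -/
def wY (l : List ℕ) : Y := (l.map fun s => bif Nat.beq s 3 then D.x else D.y).prod

omit [Finite Y] in
theorem wY_append (l l' : List ℕ) : D.wY (l ++ l') = D.wY l * D.wY l' := by
  rw [wY, List.map_append, List.prod_append]; rfl

omit [Finite Y] in
theorem wY_mem {H : Subgroup Y} (hx : D.x ∈ H) (hy : D.y ∈ H) (l : List ℕ) : D.wY l ∈ H :=
  Subgroup.list_prod_mem _ fun g hg => by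
    obtain ⟨s, _, rfl⟩ := List.mem_map.1 hg
    cases Nat.beq s 3
    exacts [hy, hx]

theorem mm_wY (l : List ℕ) (χ : D.R →* kbˣ) :
    D.mm (tw (D.wY l) (D.wY_mem D.xN D.yN l) χ) = act (D.dd χ) l (D.mm χ) := by
  induction l with
  | nil => exact congrArg D.mm (tw_one χ)
  | cons s l ih =>
    rw [act, force_eq, ← ih]
    cases h : Nat.beq s 3
    · rw [tw_congr _ (mul_mem D.yN (D.wY_mem D.xN D.yN l)) (show D.wY (s :: l) = D.y * D.wY l by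
        rw [wY, List.map_cons, List.prod_cons, h]; rfl), ← tw_tw D.yN (D.wY_mem D.xN D.yN l), mm_y,
        D.dd_tw _ _ (D.wY_mem D.xK D.yK l)]
      rfl
    · rw [tw_congr _ (mul_mem D.xN (D.wY_mem D.xN D.yN l)) (show D.wY (s :: l) = D.x * D.wY l by
        rw [wY, List.map_cons, List.prod_cons, h]; rfl), ← tw_tw D.xN (D.wY_mem D.xN D.yN l), mm_x]
      rfl

omit [Finite Y] in
/-- `g` is the word `l` up to a central element -/
def At (g : Y) (l : List ℕ) : Prop := ∃ c ∈ Subgroup.centralizer (K : Set Y), g = D.wY l * c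

variable {D}

omit [Finite Y] in
theorem At.mem {g : Y} {l : List ℕ} (h : D.At g l) : g ∈ K := by
  obtain ⟨c, hc, rfl⟩ := h
  exact mul_mem (D.wY_mem D.xK D.yK l) (D.cent hc)

omit [Finite Y] in
theorem At.mul {g g' : Y} {l l' : List ℕ} (h : D.At g l) (h' : D.At g' l') : D.At (g * g') (l ++ l') := by
  obtain ⟨c, hc, rfl⟩ := h
  obtain ⟨c', hc', rfl⟩ := h'
  refine ⟨c * c', mul_mem hc hc', ?_⟩
  rw [wY_append, mul_assoc, mul_assoc, ← mul_assoc c,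
    ← Subgroup.mem_centralizer_iff.1 hc _ (D.wY_mem D.xK D.yK l'), mul_assoc]

theorem At.norm {g : Y} {l : List ℕ} (h : D.At g l) : g ∈ Subgroup.normalizer (D.R : Set Y) := by
  obtain ⟨c, hc, rfl⟩ := h
  exact mul_mem (D.wY_mem D.xN D.yN l) (Subgroup.le_normalizer (D.c_mem hc))

theorem At.mm {g : Y} {l : List ℕ} (h : D.At g l) (hg : g ∈ Subgroup.normalizer (D.R : Set Y)) (χ : D.R →* kbˣ) :
    D.mm (tw g hg χ) = act (D.dd χ) l (D.mm χ) := by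
  obtain ⟨c, hc, rfl⟩ := h
  rw [← tw_tw (D.wY_mem D.xN D.yN l) (Subgroup.le_normalizer (D.c_mem hc)),
    tw_eq_self_of_comm _ (fun r hr => D.R_comm c (D.c_mem hc) r hr), mm_wY]

theorem dd_mem (χ : D.R →* kbˣ) : D.dd χ ∈ D9 := by
  refine mem_D9 (D.dd_lt χ) (D.mm_lt χ) ?_
  rw [← mm_wY, tw_eq_self_of_comm _ fun r hr => D.R_comm (D.wY rel) (D.c_mem D.hrel) r hr]

end Dat

end Cfsg.Agent.TwoF.XL.U43
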